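import Cfsg.Agent.Lib.GLC.PalPoly
import Cfsg.Agent.Lib.Orth.Wall2

/-!
Classification of isometries of symmetric or alternating forms in odd characteristic.
-/

set_option autoImplicit false

namespace Cfsg.Lib.Symp

open Module Polynomial Cfsg.Lib.GLC
open LinearMap hiding polar zero_apply add_apply sub_apply
open Cfsg.Lib.Orth (bilProd bilProd_apply disc sqsign)

universe w

variable {F : Type w} {V W : Type*} [Field F] [AddCommGroup V] [Module F V] [AddCommGroup W] [Module F W]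
  {B : LinearMap.BilinForm F V} {f : End F V} {C : LinearMap.BilinForm F W} {g : End F W} {e a : ℕ} {c : F}

theorem FE.smul (hf : FE e B f) (hc : c * c = 1) : FE e B (c • f) :=
  ⟨hf.two, hf.symm, hf.nd, fun u v => by simp [hf.inv, ← mul_assoc, hc]⟩

theorem FE.neg (hf : FE e B f) : FE e B (-f) := ⟨hf.two, hf.symm, hf.nd, fun u v => by simp [hf.inv]⟩

theorem ISim.neg (H : ISim B f C g) : ISim B (-f) C (-g) := by simpa using H.smul (-1)

theorem _root_.Cfsg.Lib.GLC.Sim.neg (H : Sim f g) : Sim (-f) (-g) := by simpa using H.smul (-1)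

theorem FE.scale (hf : FE e B f) (hc : c ≠ 0) : FE e (c • B) f :=
  ⟨hf.two, fun u v => by simp [hf.symm u v, mul_left_comm], fun u hu => hf.nd u fun v => by simpa [hc] using hu v,
    fun u v => by simp [hf.inv]⟩

theorem fix_neg (h2 : (2 : F) ≠ 0) (h : IsNilpotent (f - 1)) (v : V) (hv : (-f) v = v) : v = 0 := by
  obtain ⟨k, hk⟩ := h
  have := (End.HasEigenvector.pow_apply (f := f - 1) (μ := -2) (v := v) · k)
  by_contra h0
  simpa [hk, h0, h2] using (this ⟨End.mem_eigenspace_iff.2 (by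
    simp [neg_eq_iff_eq_neg.1 hv, two_smul, sub_eq_add_neg]), h0⟩).symm

variable [Module.Finite F V] [Module.Finite F W]

theorem sg_eq_one_of_fix (h2 : (2 : F) ≠ 0) (h : ∀ v, f v = v → v = 0) : usg B f = 1 := funext fun a =>
  rdisc_eq_one h2 fun v => by
    rw [show v = 0 from Subtype.ext (((End.isUnit_iff _).1 (((End.isUnit_iff (f - 1)).2 ⟨?_, injective_iff_surjective.1
      ?_⟩).pow a)).1 (v.2.trans (map_zero _).symm)), map_zero] <;>
    exact (injective_iff_map_eq_zero _).2 fun v hv => h v (sub_eq_zero.1 hv)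

theorem FE.mem_of_sg (hf : FE e B f) (ha : usg B f a ≠ 1) : (X - Polynomial.C 1) ^ a ∈ typ f ∧ Odd (a + e) := by
  by_contra h
  refine ha (rdisc_eq_one hf.two fun v => by_contra fun h1 => h ?_)
  rcases a with _ | a
  · exact absurd (by rw [show v = 0 from Subtype.ext v.2, map_zero]) h1
  let b := (toSpanSingleton F V v) ∘ₗ proj (φ := fun _ : Fin 1 => F) 0
  have h2 : ∀ c, ((f - 1) ^ (a + 1)) (b c) = 0 := fun c => by simp [b, mem_ker.1 v.2]
  have h3 : ∀ c c', tp B f a b c c' = c 0 * (c' 0 * qk B f (a + 1) v) := fun c c' => by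
    simp [b, qk_apply]; ring
  obtain ⟨D, Y, hY, -, -, h4, -⟩ := hf.exists_fr b h2 ⟨fun c hc => funext fun i => by
    simpa [h3, h1, Subsingleton.elim i 0] using hc 1, fun c hc => funext fun i => by
    simpa [h3, h1, Subsingleton.elim i 0] using hc 1⟩
  refine ⟨by rw [← h4.sim.typ_eq, typ_prodMap, typ_fr]; simp [jt], by_contra fun h7 => h1 ?_⟩
  simpa [h3] using hf.isAlt_tp (by grind) h2 1

theorem exists_cop (f : End F V) : ∃ (k : ℕ) (R : F[X]), IsCoprime ((X - Polynomial.C 1) ^ (k + 1)) R ∧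
    aeval f ((X - Polynomial.C 1) ^ (k + 1) * R) = 0 := by
  obtain ⟨R, h1, h2⟩ := exists_eq_pow_rootMultiplicity_mul_and_not_dvd _ f.charpoly_monic.ne_zero 1
  exact ⟨_, R, ((irreducible_X_sub_C 1).coprime_iff_not_dvd.2 h2).pow_left, by
    rw [pow_succ', mul_assoc, ← h1, map_mul, f.aeval_self_charpoly, mul_zero]⟩

omit [Module.Finite F V] in
theorem FE.osplit_one (hf : FE e B f) {k : ℕ} {R : F[X]} (h1 : IsCoprime ((X - Polynomial.C 1) ^ (k + 1)) R)
    (h2 : aeval f ((X - Polynomial.C 1) ^ (k + 1) * R) = 0) :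
    ∃ S : OSplit B f (ker (aeval f ((X - Polynomial.C 1 : F[X]) ^ (k + 1)))) (ker (aeval f R)),
      IsNilpotent (f.restrict S.invL - 1) ∧ ∀ v, f.restrict S.invR v = v → v = 0 := by
  have h5 := disjoint_ker_aeval_of_isCoprime f h1
  refine ⟨⟨⟨h5, codisjoint_iff.2 ?_⟩, fun x hx y hy => ?_, apply_mem_ker_aeval f _, apply_mem_ker_aeval f _⟩,
    ⟨k + 1, LinearMap.ext fun v => Subtype.ext ((semiconj_pow (a := Submodule.subtype _) (fun _ => rfl) _ _).trans
      (by simpa using mem_ker.1 v.2))⟩, fun v hv => Subtype.ext (Submodule.disjoint_def.1 h5 _ ?_ v.2)⟩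
  · rw [sup_ker_aeval_eq_ker_aeval_mul_of_coprime f h1, h2, ker_zero]
  · obtain ⟨a, b, hab⟩ := h1
    have h6 := congrArg (fun P => aeval f P y) hab
    have h7 := hf.adj_pow (k + 1) x (aeval f a y)
    simp only [mul_comm a, map_add, map_mul, map_one, LinearMap.add_apply, End.mul_apply, mem_ker.1 hy,
      map_zero, add_zero, End.one_apply, map_pow, map_sub, aeval_X, mem_ker] at h6 hx
    simpa [h6, hx] using h7
  · simp [pow_succ, show f v = v from congrArg Subtype.val hv]

variable [Finite F]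

theorem FE.sg_split (hf : FE e B f) {X Y : Submodule F V} (S : OSplit B f X Y) (h1 : IsNilpotent (f.restrict S.invL - 1))
    (h2 : ∀ v, f.restrict S.invR v = v → v = 0) : usg B f = usg (B.restrict X) (f.restrict S.invL) ∧
      usg B (-f) = usg (B.restrict Y) (-f.restrict S.invR) := by
  rw [← (hf.osplit_isim S).sg_eq hf.two, ← (hf.osplit_isim S).neg.sg_eq hf.two, sg_prodMap hf.two,
    sg_eq_one_of_fix hf.two h2, show -(f.restrict S.invL).prodMap (f.restrict S.invR) =
      (-f.restrict S.invL).prodMap (-f.restrict S.invR) from rfl, sg_prodMap hf.two,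
    sg_eq_one_of_fix hf.two (fix_neg hf.two h1)]
  simp

theorem FE.isim_step (hf : FE e B f) (hg : FE e C g) (H : Sim f g) (h1 : usg B f = usg C g)
    (h2 : usg B (-f) = usg C (-g)) (ih : ∀ (X : Submodule F V) (Y : Submodule F W) (hX : ∀ x ∈ X, f x ∈ X)
      (hY : ∀ x ∈ Y, g x ∈ Y), FE e (B.restrict X) (f.restrict hX) → FE e (C.restrict Y) (g.restrict hY) →
      Sim (f.restrict hX) (g.restrict hY) → (∀ v, f.restrict hX v = v → v = 0) → (∀ v, g.restrict hY v = v → v = 0) →
      usg (B.restrict X) (-f.restrict hX) = usg (C.restrict Y) (-g.restrict hY) →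
      ISim (B.restrict X) (f.restrict hX) (C.restrict Y) (g.restrict hY)) : ISim B f C g := by
  obtain ⟨k, R, h3, h4⟩ := exists_cop f
  obtain ⟨S, h5, h6⟩ := hf.osplit_one h3 h4
  obtain ⟨S', h7, h8⟩ := hg.osplit_one h3 ((H.aeval _).eq_zero_iff.1 h4)
  obtain ⟨h9, h10⟩ := hf.sg_split S h5 h6
  obtain ⟨h11, h12⟩ := hg.sg_split S' h7 h8
  exact (hf.osplit_isim S).symm.trans ((((hf.left S).isim_of_sg (hg.left S') h5 (H.restrict_ker _)
    (h9.symm.trans (h1.trans h11))).prodMap (ih _ _ _ _ (hf.right S) (hg.right S') (H.restrict_ker _) h6 h8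
      (h10.symm.trans (h2.trans h12)))).trans (hg.osplit_isim S'))

theorem FE.isim_of_ne (hf : FE e B f) (hg : FE e C g) (H : Sim f g) (h1 : ∀ v, f v = v → v = 0)
    (h2 : ∀ v, (-f) v = v → v = 0) : ISim B f C g := by
  rcases e.even_or_odd with h | h
  · obtain ⟨Q, h3, rfl⟩ := FE.exists_oE ⟨hf.two, by simpa [h.neg_one_pow] using hf.symm, hf.nd, hf.inv⟩
    obtain ⟨Q', h4, rfl⟩ := FE.exists_oE ⟨hg.two, by simpa [h.neg_one_pow] using hg.symm, hg.nd, hg.inv⟩
    refine (h3.qsim_of_sim_of_ne h4 H fun v hv => ?_).isim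
    exact h1 v (sub_eq_zero.1 (h2 _ (by simp [hv])))
  · exact isim_of_sim_of_ne (FE.spE ⟨hf.two, by simpa [h.neg_one_pow] using hf.symm, hf.nd, hf.inv⟩)
      (FE.spE ⟨hg.two, by simpa [h.neg_one_pow] using hg.symm, hg.nd, hg.inv⟩) H h1
      fun v hv => h2 v (neg_eq_iff_eq_neg.2 hv)

/-- Isometries are classified by their type and signs. -/
theorem FE.isim_of_sg2 (hf : FE e B f) (hg : FE e C g) (H : Sim f g) (h1 : usg B f = usg C g)
    (h2 : usg B (-f) = usg C (-g)) : ISim B f C g :=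
  hf.isim_step hg H h1 h2 fun _ _ _ _ hf hg H h3 h4 h5 => by
    simpa using (hf.neg.isim_step hg.neg H.neg h5 (by
      rw [neg_neg, neg_neg, sg_eq_one_of_fix hf.two h3, sg_eq_one_of_fix hf.two h4]) fun _ _ _ _ hf hg H h6 _ _ =>
        hf.isim_of_ne hg H h6 fun v hv => Subtype.ext (h3 v (by simpa using congrArg Subtype.val hv))).neg

omit [Finite F] in
theorem FE.map_rdual_typ (hf : FE e B f) : (typ f).map rdual = typ f := by
  obtain ⟨u, rfl⟩ := (End.isUnit_iff f).2 ⟨hf.injective, hf.surjective⟩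
  have h : Sim (u⁻¹).1 u.1 := Sim.trans ⟨B.toDual hf.nondegenerate, fun v => LinearMap.ext fun w => by
    simp [BilinForm.toDual_def, ← hf.inv _ w, ← End.mul_apply]⟩ (sim_dualMap u.1)
  refine (h.typ_eq ▸ (blocks_typ u.1).units_inv.typ_eq fun P hP => ?_).symm
  obtain ⟨R, hR, rfl⟩ := Multiset.mem_map.1 hP
  exact pp_rdual (typ_pp _ R hR) ((blocks_typ _).isUnit_iff.1 u.isUnit R hR)

omit [Finite F] in
theorem not_mem_typ_of_fix (h : ∀ v, f v = v → v = 0) : (X - Polynomial.C 1) ^ a ∉ typ f := fun h1 => by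
  have h2 := (typ_pp f _ h1).natDegree_pos
  refine (End.hasEigenvalue_iff_isRoot_charpoly f 1).2 (dvd_iff_isRoot.1 ((dvd_pow_self _ (by
    rintro rfl; simp at h2)).trans ((Multiset.dvd_prod h1).trans (blocks_typ f).charpoly_eq.symm.dvd)))
    ((Submodule.eq_bot_iff _).2 fun v hv => h v (by simpa using hv))

open Classical in
omit [Finite F] in
theorem count_typ_smul (hc : c * c = 1) :
    (typ (c • f)).count ((X - Polynomial.C 1) ^ a) = (typ f).count ((X - Polynomial.C c) ^ a) := by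
  rw [typ_smul f (left_ne_zero_of_mul_eq_one hc), ← hc, ← X_sub_C_scaleRoots, ← pow_scaleRoots_of_isReduced]
  exact Multiset.count_map_eq_count' _ _ (Function.LeftInverse.injective (g := scl c) fun P =>
    (scaleRoots_mul P c c).symm.trans (hc ▸ scaleRoots_one P)) _

open Classical in
omit [Finite F] in
theorem FE.even_count_typ (hf : FE e B f) (h : ¬ Odd (a + e)) : Even ((typ f).count ((X - Polynomial.C 1) ^ a)) := by
  obtain ⟨k, R, h3, h4⟩ := exists_cop f
  obtain ⟨S, h5, h6⟩ := hf.osplit_one h3 h4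
  obtain ⟨d, -, h7⟩ := exists_jt_one h5
  rw [S.typ_eq, Multiset.count_add, Multiset.count_eq_zero.2 (not_mem_typ_of_fix h6), h7, jt,
    Multiset.count_map_eq_count' _ _ fun k l h => by
      simpa only [natDegree_pow, natDegree_X_sub_C, mul_one] using congrArg natDegree h]
  exact (hf.left S).even_count h7 (Nat.not_odd_iff_even.1 h)

/-- The type and the signs. -/
noncomputable def dat (B : LinearMap.BilinForm F V) (f : End F V) : Multiset F[X] × (ℤˣ × ℕ → ℤˣ) :=
  (typ f, fun p => usg B (((p.1 : ℤ) : F) • f) p.2)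

omit [Finite F] in
theorem FE.adm (hf : FE e B f) : Adm V (fun a => Odd (a + e)) (dat B f) := by
  classical
  refine ⟨⟨f, (End.isUnit_iff f).2 ⟨hf.injective, hf.surjective⟩, rfl⟩, hf.map_rdual_typ, fun p => ?_⟩
  have hc : ((p.1 : ℤ) : F) * (p.1 : ℤ) = 1 := by rw [← Int.cast_mul, Int.units_coe_mul_self, Int.cast_one]
  refine ⟨fun h => ?_, fun h => ((hf.smul hc).mem_of_sg h).imp_left fun h => ?_⟩
  · exact count_typ_smul (f := f) hc ▸ (hf.smul hc).even_count_typ h
  · rwa [← Multiset.count_ne_zero, count_typ_smul hc, Multiset.count_ne_zero] at h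

theorem FE.isim_of_dat (hf : FE e B f) (hg : FE e C g) (h : dat B f = dat C g) : ISim B f C g :=
  hf.isim_of_sg2 hg (sim_iff_typ_eq.2 (congrArg Prod.fst h))
    (funext fun a => by simpa [dat] using congrArg (·.2 (1, a)) h)
    (funext fun a => by simpa [dat] using congrArg (·.2 (-1, a)) h)

end Cfsg.Lib.Symp
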