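import Cfsg.Agent.Lib.GLC.FENum

/-!
Class numbers of orthogonal groups in odd characteristic.
-/

set_option autoImplicit false

namespace Cfsg.Lib.Orth

open Module Polynomial Cfsg.Lib.GLC Cfsg.Lib.Symp
open LinearMap hiding polar zero_apply add_apply sub_apply
open QuadraticMap (polarBilin)

universe w

variable {F : Type w} {V W : Type*} [Field F] [AddCommGroup V] [Module F V] [AddCommGroup W] [Module F W]
  [Module.Finite F V] [Module.Finite F W] [Finite F]
  {B : LinearMap.BilinForm F V} {f : End F V} {C : LinearMap.BilinForm F W} {g : End F W} {a : ℕ} {c : F}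
  {Q : QuadraticForm F V} {P R : F[X]} {δ ε : ℤˣ}

omit [Finite F] in
theorem _root_.Cfsg.Lib.Symp.ISim.disc_eq (H : ISim B f C g) :
    disc (BilinMap.toQuadraticMap B) = disc (BilinMap.toQuadraticMap C) :=
  let ⟨e, h, _⟩ := H; disc_congr (equivalent_of e fun v => h v v)

omit [Finite F] [Module.Finite F V] in
theorem _root_.Cfsg.Lib.Symp.FE.nd' (hf : FE 0 B f) : ND (BilinMap.toQuadraticMap B) :=
  nd_toQuadraticMap hf.two ⟨fun u v => by simpa using hf.symm v u⟩ hf.nondegenerate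

theorem _root_.Cfsg.Lib.Symp.FE.disc_prod (hf : FE 0 B f) (hg : FE 0 C g) : disc (BilinMap.toQuadraticMap (bilProd B C)) =
    disc (BilinMap.toQuadraticMap B) * disc (BilinMap.toQuadraticMap C) := by
  rw [← Orth.disc_prod hf.nd' hg.nd']
  exact disc_congr (equivalent_of (.refl _ _) fun v => by simp [bilProd_apply])

theorem disc_smul (hQ : ND Q) (hc : c ≠ 0) : disc (c • Q) = sqsign c ^ finrank F V * disc Q := by
  rw [disc, disc, show gram (c • Q) (finBasis F V) = c • gram Q (finBasis F V) by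
    ext; simp [gram, QuadraticMap.polar]; ring, Matrix.det_smul, sqsign_mul (pow_ne_zero _ hc) (det_gram_ne_zero hQ _),
    sqsign_pow hc, Fintype.card_fin]

theorem _root_.Cfsg.Lib.Symp.FE.flip_ne {g : End F V} (hf : FE 0 B f) (hg : FE 0 B g) (H : Sim f g)
    (h1 : (X - Polynomial.C 1) ^ a ∈ typ f) (h2 : Odd a) (h3 : usg B g = Function.update (usg B f) a (-usg B f a)) :
    usg B (-g) ≠ usg B (-f) := fun h4 => by
  obtain ⟨k, R, h5, h6⟩ := exists_cop f
  obtain ⟨S, h7, h8⟩ := hf.osplit_one h5 h6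
  obtain ⟨d, -, h9⟩ := exists_jt_one h7
  rw [S.typ_eq, Multiset.mem_add, or_iff_left (not_mem_typ_of_fix h8), h9] at h1
  obtain ⟨d, rfl⟩ := Multiset.le_iff_exists_add.1 (Multiset.singleton_le.2 ((Multiset.mem_map_of_injective
    fun k l h => by simpa only [natDegree_pow, natDegree_X_sub_C, mul_one] using congrArg natDegree h).1 h1))
  obtain ⟨X, Y, S', h10⟩ := (hf.left S).exists_osplit_jt h9 fun b hb => by
    rw [Multiset.count_eq_zero.2 (by simp; grind)]; simp
  have h11 := (hf.left S).left S'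
  have h12 := ((hf.left S).right S').prodMap (hf.right S)
  have h13 := (isim_prodAssoc ..).symm.trans ((((hf.left S).osplit_isim S').prodMap (.refl ..)).trans (hf.osplit_isim S))
  obtain ⟨ν, h14, h15⟩ := exists_sqsign hf.two (-1)
  have h16 := FE.isNilpotent_of_typ h10
  have h17 := disc_smul h11.nd' h14
  generalize BilinForm.restrict _ X = B₁ at *
  generalize LinearMap.restrict _ S'.invL = f₁ at *
  obtain ⟨B₂, f₂, h12, h13⟩ : ∃ (B₂ : LinearMap.BilinForm F (Y × ker (aeval f R))) (f₂ : _), FE 0 B₂ f₂ ∧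
    ISim (bilProd B₁ B₂) (f₁.prodMap f₂) B f := ⟨_, _, h12, h13⟩
  rw [← (h10 ▸ blocks_typ f₁ : Blocks f₁ (jt 1 {a})).jt_sum, h15, Multiset.sum_singleton, h2.neg_one_pow] at h17
  have h18 : usg (ν • B₁) f₁ = Function.update (usg B₁ f₁) a (-usg B₁ f₁ a) := by
    have h18 : ∀ b, b ≠ a → usg (ν • B₁) f₁ b = usg B₁ f₁ b := fun b hb =>
      ((h11.scale h14).sg_eq_one h10 (by simp [hb])).trans (h11.sg_eq_one h10 (by simp [hb])).symm
    refine Function.eq_update_iff.2 ⟨Int.units_ne_iff_eq_neg.1 fun h => ?_, h18⟩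
    have := ((h11.scale h14).isim_of_sg h11 h16 (.refl _) (funext fun b => if hb : b = a then hb ▸ h else h18 b hb)).disc_eq
    simp [h17, neg_eq_iff_eq_neg] at this
  have := (((h11.scale h14).prodMap h12).isim_of_sg2 hg (h13.sim.trans H) ?_ ?_).disc_eq.trans h13.disc_eq.symm
  · rw [(h11.scale h14).disc_prod h12, h11.disc_prod h12] at this
    simp [h17, neg_eq_iff_eq_neg] at this
  · rw [h3, ← h13.sg_eq hf.two, sg_prodMap hf.two, sg_prodMap hf.two, h18]
    funext b
    by_cases hb : b = a <;> simp [hb]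
  · have h19 : ∀ B : LinearMap.BilinForm F X, usg B (-f₁) = 1 := fun _ => sg_eq_one_of_fix hf.two (fix_neg hf.two h16)
    rw [h4, ← h13.neg.sg_eq hf.two, show -f₁.prodMap f₂ = (-f₁).prodMap (-f₂) from rfl, sg_prodMap hf.two,
      sg_prodMap hf.two, h19, h19]

theorem OE.disc_eq_of_ne (hf : OE Q f) (h : ∀ v, f (f v) = v → v = 0) :
    disc Q = sqsign (f.charpoly.eval 1 * f.charpoly.eval (-1)) := by
  have hT := hf.spE_twist h
  obtain ⟨m, hm⟩ := hT.even_finrank
  obtain ⟨e, he⟩ := exists_isometry_of_finrank_eq hT.alt hT.nd (bil_isAlt (Fin m) F) (bil_nondegenerate (Fin m) F)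
    (by simp [hm])
  let b := (Pi.basisFun F _).map e.symm
  have h1 : LinearMap.BilinForm.toMatrix b (twist (polarBilin Q) f) = Matrix.J (Fin m) F := by
    ext i j; simp [b, LinearMap.BilinForm.toMatrix_apply, ← he, bil]
  have h2 := congrArg (fun B => (LinearMap.BilinForm.toMatrix b B).det) (show (twist (polarBilin Q) f).compLeft f =
    BilinForm.compLeft (polarBilin Q) ((algebraMap F _ 1 - f) * (algebraMap F _ (-1) - f)) by
      ext u v; simp [twist_apply, hf.polar]; ring)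
  rw [LinearMap.BilinForm.toMatrix_compLeft, LinearMap.BilinForm.toMatrix_compLeft] at h2
  simp only [Matrix.det_mul, Matrix.det_transpose, det_toMatrix, h1, hT.det_eq_one,
    SymplecticGroup.det_eq_one (SymplecticGroup.J_mem _ _), map_mul, ← eval_charpoly, ← gram_eq_toMatrix, one_mul] at h2
  have h3 := congrArg sqsign h2
  rw [sqsign_mul (left_ne_zero_of_mul_eq_one h2.symm) (right_ne_zero_of_mul_eq_one h2.symm), sqsign_one] at h3
  rw [disc_eq b, eq_inv_of_mul_eq_one_right h3.symm, Int.units_inv_eq_self]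

/-- Changing the sign at one place. -/
def flp {T : Type*} (x : T × (ℤˣ × ℕ → ℤˣ)) (p : ℤˣ × ℕ) : T × (ℤˣ × ℕ → ℤˣ) := (x.1, Function.update x.2 p (-x.2 p))

theorem _root_.Cfsg.Lib.Symp.FE.dat_ne {g : End F V} (hf : FE 0 B f) (hg : FE 0 B g) {p : ℤˣ × ℕ}
    (h1 : xp F p ∈ typ f) (h2 : Odd p.2) : dat B g ≠ flp (dat B f) p := fun h => by
  classical
  obtain ⟨ε, a⟩ := p
  have hc : ((ε : ℤ) : F) * (ε : ℤ) = 1 := by rw [← Int.cast_mul, Int.units_coe_mul_self, Int.cast_one]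
  refine (hf.smul hc).flip_ne (hg.smul hc) ((sim_iff_typ_eq.2 (congrArg Prod.fst h).symm).smul _) (a := a)
    (by rwa [← Multiset.count_ne_zero, count_typ_smul hc, Multiset.count_ne_zero]) h2 (funext fun b => ?_)
    (funext fun b => ?_)
  · simpa [dat, flp, Function.update_apply] using congrArg (·.2 (ε, b)) h
  · simpa [dat, flp, Function.update_apply] using congrArg (·.2 (-ε, b)) h

theorem two_mul_card_le {X : Type*} (h2 : (2 : F) ≠ 0) (φ : X → End F V) (h : ∀ x, FE 0 B (φ x))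
    (h' : ∀ x y, ISim B (φ x) B (φ y) → x = y) : 2 * Nat.card X ≤
      cc (aF (fun j => Odd (j + 0)) (Nat.card F)) (finrank F V) (finrank F V) +
        cc (aF (fun _ => False) (Nat.card F)) (finrank F V) (finrank F V) := by
  classical
  obtain ⟨_, h3⟩ := card_adm_le (V := V) h2 fun j => Odd (j + 0)
  obtain ⟨_, h4⟩ := card_adm_le (V := V) h2 fun _ => False
  let π : Multiset F[X] → ℤˣ × ℕ := fun μ => Classical.epsilon fun p => xp F p ∈ μ ∧ Odd p.2
  have h5 : ∀ x y, dat B (φ x) = dat B (φ y) → x = y := fun x y e => h' x y ((h x).isim_of_dat (h y) e)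
  let ψ : X ⊕ X → {x // Adm (F := F) V (fun j => Odd (j + 0)) x} ⊕ {x // Adm (F := F) V (fun _ => False) x} :=
    Sum.elim (fun x => .inl ⟨_, (h x).adm⟩) fun x => if e : ∃ p, xp F p ∈ typ (φ x) ∧ Odd p.2 then
      .inl ⟨flp (dat B (φ x)) (π (typ (φ x))), (h x).adm.1, (h x).adm.2.1, fun p => ⟨((h x).adm.2.2 p).1, fun e' => by
        rcases eq_or_ne p (π (typ (φ x))) with rfl | e''
        exacts [Classical.epsilon_spec e, ((h x).adm.2.2 p).2 (by simpa [flp, e''] using e')]⟩⟩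
      else .inr ⟨_, (h x).adm.1, (h x).adm.2.1, fun p => ⟨fun _ => by
        by_cases e' : Odd p.2
        · exact (Multiset.count_eq_zero.2 fun e'' => e ⟨p, e'', e'⟩).symm ▸ Even.zero
        · exact ((h x).adm.2.2 p).1 e', fun e' => (e ⟨p, ((h x).adm.2.2 p).2 e'⟩).elim⟩⟩
  rw [two_mul, ← Nat.card_congr (Equiv.refl X)]
  rcases finite_or_infinite X with _ | _
  · refine (Nat.card_sum.symm.trans_le (Nat.card_le_card_of_injective ψ ?_)).trans (Nat.card_sum.trans_le (add_le_add h3 h4))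
    rintro (x | x) (y | y) e <;> simp only [ψ, Sum.elim_inl, Sum.elim_inr] at e
    · rw [h5 x y (by simpa using e)]
    · split_ifs at e with e'
      exact absurd (congrArg Subtype.val (Sum.inl.inj e)) ((h y).dat_ne (h x) (Classical.epsilon_spec e').1 (Classical.epsilon_spec e').2)
    · split_ifs at e with e'
      exact absurd (congrArg Subtype.val (Sum.inl.inj e.symm)) ((h x).dat_ne (h y) (Classical.epsilon_spec e').1 (Classical.epsilon_spec e').2)
    · split_ifs at e with e' e''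
      · simp only [Sum.inl.injEq, Subtype.mk.injEq, flp, Prod.mk.injEq] at e
        refine congrArg _ (h5 x y (Prod.ext e.1 (funext fun p => ?_)))
        have := congrFun e.2 p
        rw [show typ (φ x) = typ (φ y) from e.1] at this
        by_cases e : p = π (typ (φ y)) <;> simpa [e] using this
      · rw [h5 x y (congrArg Subtype.val (Sum.inr.inj e))]
  · simp

/-- `P` is the characteristic polynomial of an isometry of a form of discriminant `δ`. -/
def OC (P : F[X]) (δ : ℤˣ) : Prop := ∃ (V : Type w) (_ : AddCommGroup V) (_ : Module F V) (_ : Module.Finite F V)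
  (Q : QuadraticForm F V) (f : End F V), OE Q f ∧ f.charpoly = P ∧ disc Q = δ

theorem OC.mul (h : OC P δ) (h' : OC R ε) : OC (P * R) (δ * ε) :=
  let ⟨_, _, _, _, _, _, h1, h2, h3⟩ := h
  let ⟨_, _, _, _, _, _, h4, h5, h6⟩ := h'
  ⟨_, _, _, _, _, _, h1.prodMap h4, by rw [charpoly_prodMap, h2, h5], by rw [disc_prod h1.nd h4.nd, h3, h6]⟩

theorem oc_linear (h2 : (2 : F) ≠ 0) (hc : c * c = 1) (δ : ℤˣ) : OC (X - Polynomial.C c) δ := by
  obtain ⟨Q, h1, h3⟩ := exists_qsg one_ne_zero (fun _ => h2) δ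
  refine ⟨_, _, _, _, Q, _, (OE.one h1).smul hc, ?_, by simpa [qsg_eq_disc h1 h2] using h3⟩
  simp [← charpoly_toMatrix _ (Pi.basisFun F _), Matrix.charpoly, Matrix.charmatrix]

theorem oc_of_ne (h : Pal P) (h1 : P.eval 1 ≠ 0) (h2 : P.eval (-1) ≠ 0) : OC P (sqsign (P.eval 1 * P.eval (-1))) := by
  obtain ⟨B, hB⟩ := exists_spE_cyc h.monic h.1 h.2.1 h.2.2
  haveI := h.monic.finite_adjoinRoot
  have h3 : ∀ c, P.eval c ≠ 0 → ∀ v, cyc P v = c • v → v = 0 := fun c hc v hv => by_contra fun h0 => hc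
    (charpoly_cyc h.monic ▸ (End.hasEigenvalue_iff_isRoot_charpoly _ c).1 (End.hasEigenvalue_of_hasEigenvector
      ⟨End.mem_eigenspace_iff.2 hv, h0⟩))
  have h4 : ∀ v, cyc P (cyc P v) = v → v = 0 := fun v hv =>
    h3 1 h1 v (by simpa [sub_eq_zero] using h3 (-1) h2 (cyc P v - v) (by simp [hv]))
  obtain ⟨Q, hQ⟩ := hB.exists_oE h4
  exact ⟨_, _, _, _, Q, _, hQ, charpoly_cyc h.monic, by rw [hQ.disc_eq_of_ne h4, charpoly_cyc h.monic]⟩

theorem oc_of_root (h2 : (2 : F) ≠ 0) (h : MC P ∧ rdual P = P) (h1 : P.eval 1 * P.eval (-1) = 0) (δ : ℤˣ) : OC P δ := by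
  classical
  obtain ⟨R, h3, h4⟩ := exists_pal h2 h (k := 0) (l := 0) (add_zero _).symm (add_zero _).symm
  have h5 : (1 : F) ≠ -1 := fun h => h2 (by linear_combination h)
  have h6 : ∀ c, rootMultiplicity c P = (if c = 1 then rootMultiplicity 1 P else 0) +
      ((if c = -1 then rootMultiplicity (-1) P else 0) + rootMultiplicity c R) := fun c => by
    conv_lhs => rw [h4, mul_assoc, rm_pow_mul (mul_ne_zero (pow_ne_zero _ (X_sub_C_ne_zero _)) h3.monic.ne_zero),
      rm_pow_mul h3.monic.ne_zero]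
  have h7 : ∀ c, rootMultiplicity c R = 0 → R.eval c ≠ 0 := fun c h e =>
    h3.monic.ne_zero (rootMultiplicity_eq_zero_iff.1 h e)
  have h8 : ∀ c : F, c * c = 1 → ∀ k P, (∃ δ, OC P δ) → (∃ δ, OC ((X - Polynomial.C c) ^ k * P) δ) ∧
      (k ≠ 0 → ∀ δ, OC ((X - Polynomial.C c) ^ k * P) δ) := fun c hc k P h => by
    induction k with
    | zero => simpa using h
    | succ k ih =>
      obtain ⟨ε, h⟩ := ih.1
      have := fun δ => (oc_linear h2 hc δ).mul h
      simp only [← mul_assoc, ← pow_succ'] at this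
      exact ⟨⟨_, this 1⟩, fun _ δ => inv_mul_cancel_right δ ε ▸ this _⟩
  have h9 : ∃ δ, OC R δ := ⟨_, oc_of_ne h3 (h7 _ (by simpa [h5] using h6 1)) (h7 _ (by simpa [h5.symm] using h6 (-1)))⟩
  rw [h4]
  rcases mul_eq_zero.1 h1 with h1 | h1
  · rw [mul_assoc]
    exact (h8 1 (by simp) _ _ (h8 (-1) (by simp) _ _ h9).1).2
      ((rootMultiplicity_pos h.1.1.ne_zero).2 h1).ne' δ
  · rw [mul_comm (_ ^ _), mul_assoc]
    exact (h8 (-1) (by simp) _ _ (h8 1 (by simp) _ _ h9).1).2 ((rootMultiplicity_pos h.1.1.ne_zero).2 h1).ne' δ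

omit [Module.Finite F W] in
theorem OC.exists_oE (h2 : (2 : F) ≠ 0) (hQ : ND Q) (h : OC P (disc Q)) (hP : P.natDegree = finrank F V) :
    ∃ f, OE Q f ∧ f.charpoly = P := by
  obtain ⟨W, _, _, _, Q', g, h1, rfl, h3⟩ := h
  obtain ⟨f, hf⟩ := exists_qsim (equivalent_of_disc_eq h1.nd hQ h2 (g.charpoly_natDegree.symm.trans hP) h3) g
  exact ⟨f, hf.oE h1, hf.sim.charpoly_eq.symm⟩

theorem pow_le_two_mul_card (h2 : (2 : F) ≠ 0) (hQ : ND Q) {n : ℕ} (hn : 2 ≤ n) (hV : finrank F V = 2 * n) :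
    Nat.card F ^ n ≤ 2 * Nat.card {P : F[X] // ∃ f, OE Q f ∧ f.charpoly = P} := by
  classical
  obtain ⟨ν, h3, h4⟩ := exists_sqsign h2 (-1)
  obtain ⟨n, rfl⟩ := Nat.exists_eq_add_of_le' hn
  let L : F[X] := X ^ (n + 1) * (X + 1) ^ 2
  let φ : F[X] → F[X] := fun P => P + ((ν - 1) * P.eval 1 / 4) • L
  have h5 : (4 : F) ≠ 0 := by simpa [← two_add_two_eq_four, ← two_mul] using h2
  have h6 : ∀ P, (φ P).eval 1 = ν * P.eval 1 := fun P => by simp [φ, L]; field_simp; ring
  have h7 : ∀ P, (φ P).eval (-1) = P.eval (-1) := fun P => by simp [φ, L]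
  have h8 : ∀ i, L.coeff i = (if i = n + 1 then 1 else 0) + (if i = n + 2 then 2 else 0) + if i = n + 3 then 1 else 0 :=
    fun i => by
      rw [show L = X ^ (n + 1) + Polynomial.C 2 * X ^ (n + 2) + X ^ (n + 3) by simp [L, map_ofNat]; ring]
      simp [coeff_X_pow]
  have h9 : ∀ P, Pal P ∧ P.natDegree = 2 * (n + 2) → Pal (φ P) ∧ (φ P).natDegree = 2 * (n + 2) := fun P h => by
    have h10 : (φ P).natDegree = 2 * (n + 2) := (natDegree_add_eq_left_of_natDegree_lt ((natDegree_smul_le _ _).trans_lt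
      ((natDegree_le_iff_coeff_eq_zero.2 fun i hi => by rw [h8]; grind).trans_lt (show n + 3 < _ by omega)))).trans h.2
    have h11 : (φ P).coeff 0 = 1 := by simp [φ, h8, h.1.1]
    refine ⟨⟨h11, rdual_eq_of_coeff h11 (h10 ▸ fun i hi => ?_), h10 ▸ even_two_mul _⟩, h10⟩
    have := coeff_of_rdual_eq h.1.2.1 (by simp [h.1.1]) (hi.trans h.2.ge)
    rw [h.2, h.1.1, one_mul] at this
    simp only [φ, coeff_add, coeff_smul, this, h8]
    grind
  have h10 : ∀ P, Pal P ∧ P.natDegree = 2 * (n + 2) → ¬ (∃ f, OE Q f ∧ f.charpoly = P) →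
      ∃ f, OE Q f ∧ f.charpoly = φ P := fun P h h' => by
    have h10 : P.eval 1 * P.eval (-1) ≠ 0 := fun e => h' ((oc_of_root h2 ⟨⟨h.1.monic, h.1.1 ▸ one_ne_zero⟩, h.1.2.1⟩
      e _).exists_oE h2 hQ (h.2.trans hV.symm))
    have h11 := oc_of_ne h.1 (left_ne_zero_of_mul h10) (right_ne_zero_of_mul h10)
    have h12 := oc_of_ne (h9 P h).1 (h6 P ▸ mul_ne_zero h3 (left_ne_zero_of_mul h10)) (h7 P ▸ right_ne_zero_of_mul h10)
    rw [h6, h7, mul_assoc, sqsign_mul h3 h10, h4, neg_one_mul, ← Int.units_ne_iff_eq_neg.1 fun e : disc Q = _ =>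
      h' (OC.exists_oE h2 hQ (e ▸ h11) (h.2.trans hV.symm))] at h12
    exact h12.exists_oE h2 hQ ((h9 P h).2.trans hV.symm)
  have := finite_natDegree (F := F) (fun _ => True) (finrank F V)
  have : Finite {P : F[X] // ∃ f, OE Q f ∧ f.charpoly = P} := .of_injective _ (Subtype.impEmbedding _
    (fun P => True ∧ P.natDegree = finrank F V) fun P ⟨f, _, h⟩ => ⟨trivial, h ▸ f.charpoly_natDegree⟩).injective
  rw [← card_pal, two_mul (Nat.card _), ← Nat.card_sum]
  refine Nat.card_le_card_of_injective (fun P => if h : _ then .inl ⟨P.1, h⟩ else .inr ⟨_, h10 P.1 P.2 h⟩) fun P R e => ?_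
  dsimp only at e
  split_ifs at e
  · exact Subtype.ext (by simpa using e)
  · replace e : φ P = φ R := by simpa using e
    have := h6 P ▸ h6 R ▸ congrArg (eval 1) e
    exact Subtype.ext (by simpa [φ, mul_left_cancel₀ h3 this] using e)

open Matrix in
theorem card_iso_classes_bounds {ι : Type} [Fintype ι] [DecidableEq ι] {Q : QuadraticForm F (ι → F)} (h2 : (2 : F) ≠ 0)
    (hQ : ND Q) {n : ℕ} (hn : 2 ≤ n) (hι : Fintype.card ι = 2 * n) :
    Nat.card F ^ n ≤ 2 * Nat.card (ConjClasses (isometryGroup F ⇑Q)) ∧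
      2 * Nat.card (ConjClasses (isometryGroup F ⇑Q)) ≤ 19 * Nat.card F ^ n := by
  have hV : finrank F (ι → F) = 2 * n := by simp [hι]
  constructor
  · refine (pow_le_two_mul_card h2 hQ hn hV).trans (Nat.mul_le_mul_left 2 (Nat.card_le_card_of_surjective
      (fun C : ConjClasses (isometryGroup F ⇑Q) => ⟨_, _, oE_iso hQ C.out, rfl⟩) fun ⟨_, f, hf, rfl⟩ => ?_))
    obtain ⟨a, rfl⟩ := hf.exists_iso
    exact ⟨.mk a, Subtype.ext (iso_isConj_iff.1 (Quotient.mk_out (s := IsConj.setoid _) a)).sim.charpoly_eq⟩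
  · have h3 : 3 ≤ Nat.card F := by
      have := Finite.one_lt_card (α := F)
      have := Fintype.ofFinite F
      have := FiniteField.odd_card_of_char_ne_two (mt ringChar_eq_two_iff.1 h2)
      rw [← Nat.card_eq_fintype_card] at this
      omega
    have h4 := two_mul_card_le h2 (fun C : ConjClasses (isometryGroup F ⇑Q) => toLin' C.out.1.1)
      (fun C => (oE_iso hQ _).fE h2) fun C D h => Quotient.out_equiv_out.1 (iso_isConj_iff.2
        ((oE_iso hQ _).qsim_of_isim (oE_iso hQ _) h (.inl h2)))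
    rw [hV, two_mul n] at h4
    have := cc_o_le h3 (n + n) n
    have := cc_pal_le h3 (n + n) n
    omega

end Cfsg.Lib.Orth
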