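import Cfsg.Agent.Lib.GLC.PalSeq

/-!
Numerical bounds for the class numbers of orthogonal groups in odd dimension.
-/

set_option autoImplicit false

namespace Cfsg.Lib.GLC

open Finset

variable {a : ℕ → ℕ → ℕ} {j q : ℕ} {K A x c : ℝ}

theorem cc_one (a : ℕ → ℕ → ℕ) (m : ℕ) : cc a 1 m = a 1 m := by
  rw [cc, Nat.div_one, sum_eq_single_of_mem m (by simp) fun d hd h => by
    rw [cc, if_neg (by have := mem_range.1 hd; omega), mul_zero]]
  simp [cc]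

/-- The weight of a dimension. -/
noncomputable def wq (q m : ℕ) : ℝ := q ^ (m / 2) * if Odd m then 12 / 7 else 1

theorem wq_nonneg (q m : ℕ) : 0 ≤ wq q m := by rw [wq]; positivity

theorem wq_even (q m : ℕ) : wq q (2 * m) = q ^ m := by simp [wq]

theorem wq_odd (q m : ℕ) : wq q (2 * m + 1) = 12 / 7 * q ^ m := by simp [wq, Nat.mul_add_div, mul_comm (12 / 7 : ℝ)]

theorem mul_inv_pow_sq (hq : 3 ≤ q) (k : ℕ) : (q : ℝ) * ((q : ℝ)⁻¹ ^ (k + 1)) ^ 2 ≤ 3 * (3⁻¹ ^ (k + 1)) ^ 2 :=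
  calc _ = (q * (q : ℝ)⁻¹) * (q : ℝ)⁻¹ ^ (2 * k + 1) := by ring
    _ ≤ (3 : ℝ)⁻¹ ^ (2 * k + 1) := by
      rw [mul_inv_cancel₀ (Nat.cast_ne_zero.2 (by omega)), one_mul]; gcongr; exact_mod_cast hq
    _ = _ := by ring

theorem wq_add_two (q m : ℕ) : wq q (m + 2) = q * wq q m := by simp [wq, parity_simps, pow_succ', mul_assoc]

theorem wq_add (hq : 3 ≤ q) (k m : ℕ) : wq q m = wq q (m + 2 * k) * (q : ℝ)⁻¹ ^ k := by
  induction k with
  | zero => simp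
  | succ k ih => rw [mul_add_one, ← add_assoc, wq_add_two, ih, pow_succ]; have : q ≠ 0 := by omega
                 field_simp

theorem wq_le (hq : 3 ≤ q) (k m : ℕ) : wq q m ≤ wq q (m + (2 * k + 1)) * (7 / 12 * (q : ℝ)⁻¹ ^ k) := by
  rw [add_comm _ 1, ← add_assoc, mul_left_comm, ← wq_add hq]
  have h : (3 : ℝ) ≤ q := by exact_mod_cast hq
  obtain ⟨m, rfl | rfl⟩ := m.even_or_odd'
  · rw [wq_even, wq_odd]; linarith
  · rw [add_assoc, ← mul_add_one 2 m, wq_even, wq_odd, pow_succ]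
    nlinarith [pow_pos (three_pos.trans_le h) m]

theorem cc_le_step' (hx : 0 ≤ x) (h : ∀ m, (cc a j m : ℝ) ≤ K * wq q m)
    (hw : ∀ m, wq q m ≤ wq q (m + (j + 1)) * x) (hA : ∀ D, ∑ d ∈ range D, a (j + 1) d * x ^ d ≤ A) (m : ℕ) :
    (cc a (j + 1) m : ℝ) ≤ K * A * wq q m := by
  have hK : 0 ≤ K := by simpa [wq] using (Nat.cast_nonneg _).trans (h 0)
  have h1 : ∀ d m, wq q m ≤ wq q (m + d * (j + 1)) * x ^ d := fun d m => by
    induction d with
    | zero => simp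
    | succ d ih => rw [add_one_mul, ← add_assoc, pow_succ', ← mul_assoc]; exact ih.trans (by gcongr; exact hw _)
  rw [cc]
  push_cast
  refine (sum_le_sum (g := fun d => K * wq q m * (a (j + 1) d * x ^ d)) fun d hd => ?_).trans ?_
  · have := h1 d (m - d * (j + 1))
    rw [Nat.sub_add_cancel ((Nat.le_div_iff_mul_le j.succ_pos).1 (Nat.le_of_lt_succ (mem_range.1 hd)))] at this
    exact (mul_le_mul_of_nonneg_left ((h _).trans (mul_le_mul_of_nonneg_left this hK)) (Nat.cast_nonneg _)).trans_eq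
      (by ring)
  · rw [← mul_sum, mul_right_comm K A]
    exact mul_le_mul_of_nonneg_left (hA _) (mul_nonneg hK (wq_nonneg _ _))

theorem cc_step_odd (hq : 3 ≤ q) {r k : ℕ} (h : ∀ m, (cc a (2 * (k + 1)) m : ℝ) ≤ K * wq q m)
    (hO : ∀ x z : ℝ, 0 ≤ x → q * x ^ 2 ≤ z → z < 1 → ∀ D, ∑ d ∈ range D, a (2 * (k + 1) + 1) d * x ^ d ≤
      (1 + x) ^ r * (1 - z)⁻¹) (m : ℕ) : (cc a (2 * (k + 1) + 1) m : ℝ) ≤
        K * ((1 + 7 / 12 * 3⁻¹ ^ (k + 1)) ^ r * (1 - 49 / 48 * (3⁻¹ ^ (k + 1)) ^ 2)⁻¹) * wq q m := by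
  have hq' : (q : ℝ)⁻¹ ≤ 3⁻¹ := by gcongr; exact_mod_cast hq
  have h1 : (3⁻¹ : ℝ) ^ (k + 1) ≤ 3⁻¹ := pow_le_of_le_one (by norm_num) (by norm_num) k.succ_ne_zero
  have h2 : 49 / 48 * ((3⁻¹ : ℝ) ^ (k + 1)) ^ 2 < 1 := by
    have : 0 < (3⁻¹ : ℝ) ^ (k + 1) := by positivity
    nlinarith
  have := sub_pos.2 h2
  refine cc_le_step' (by positivity) h (wq_le hq _) (fun D => (hO _ _ (by positivity) ?_ h2 D).trans (by gcongr)) m
  rw [mul_pow]
  linarith [mul_inv_pow_sq hq k]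

/-- The factor for two consecutive places. -/
noncomputable def gW (r : ℕ) (y : ℝ) : ℝ := (1 - 3 * y ^ 2)⁻¹ * ((1 + 7 / 12 * y) ^ r * (1 - 49 / 48 * y ^ 2)⁻¹)

theorem three_mul_lt (k : ℕ) : 3 * ((3⁻¹ : ℝ) ^ (k + 1)) ^ 2 < 1 := by
  have : (3⁻¹ : ℝ) ^ (k + 1) ≤ 3⁻¹ := pow_le_of_le_one (by norm_num) (by norm_num) k.succ_ne_zero
  have : 0 < (3⁻¹ : ℝ) ^ (k + 1) := by positivity
  nlinarith

variable {r : ℕ} (hq : 3 ≤ q) (hE : ∀ k, a (2 * k) = aP q) (hO : ∀ k, ∀ x z : ℝ, 0 ≤ x → q * x ^ 2 ≤ z → z < 1 →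
  ∀ D, ∑ d ∈ range D, a (2 * (k + 1) + 1) d * x ^ d ≤ (1 + x) ^ r * (1 - z)⁻¹)

include hq hE hO

theorem cc_step_two {k : ℕ} (h : ∀ m, (cc a (2 * k + 1) m : ℝ) ≤ K * wq q m) (m : ℕ) :
    (cc a (2 * (k + 1) + 1) m : ℝ) ≤ K * gW r (3⁻¹ ^ (k + 1)) * wq q m :=
  (cc_step_odd hq (cc_le_step' (by positivity) h
    (fun m => (wq_add hq (k + 1) m).le) (hE (k + 1) ▸ sum_aP_le (by positivity) (mul_inv_pow_sq hq k)
      (three_mul_lt k))) (hO k) m).trans_eq (by rw [gW]; ring)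

theorem cc_wq_le {i : ℕ} (h0 : ∀ j, a j 0 = 1) (hc : 0 ≤ c) (hK : 0 ≤ K)
    (h : ∀ m, (cc a (2 * i + 1) m : ℝ) ≤ K * (1 - c * 3⁻¹ ^ i) * wq q m)
    (h4 : ∀ y, 0 < y → y ≤ 3⁻¹ ^ (i + 1) → (1 - 3 * c * y) * (1 + 7 / 12 * y) ^ r ≤
      (1 - c * y) * ((1 - 3 * y ^ 2) * (1 - 49 / 48 * y ^ 2))) (j m : ℕ) : (cc a j m : ℝ) ≤ K * wq q m := by
  have h8 : ∀ k, i ≤ k → ∀ m, (cc a (2 * k + 1) m : ℝ) ≤ K * (1 - c * 3⁻¹ ^ k) * wq q m := fun k hk => by
    induction hk with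
    | refl => exact h
    | @step k hk ih =>
      refine fun m => (cc_step_two hq hE hO ih m).trans (mul_le_mul_of_nonneg_right ?_ (wq_nonneg _ _))
      rw [mul_assoc]
      refine mul_le_mul_of_nonneg_left ?_ hK
      have := h4 _ (by positivity) (pow_le_pow_of_le_one (by norm_num) (by norm_num) (Nat.add_le_add_right hk 1))
      rw [gW, mul_left_comm (_⁻¹), ← mul_inv, ← mul_assoc, mul_inv_le_iff₀ (mul_pos (sub_pos.2 (three_mul_lt _))
        (by nlinarith [three_mul_lt k]))]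
      exact le_of_eq_of_le (by ring) this
  exact (Nat.cast_le.2 (cc_mono h0 (by omega) m)).trans ((h8 (i + j) le_self_add m).trans (mul_le_mul_of_nonneg_right
    (mul_le_of_le_one_right hK (sub_le_self _ (by positivity))) (wq_nonneg _ _)))

omit hE hO

theorem aP_add_two (d : ℕ) : aP q (d + 2) = q * aP q d := by simp [aP, parity_simps, pow_succ']

theorem cc_odd_le (j n : ℕ) : 5 * cc (aF (fun j => Odd (j + 0)) q) j (2 * n + 1) ≤ 144 * q ^ n := by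
  have h2 : (3 : ℝ) ≤ q := by exact_mod_cast hq
  have hE : ∀ k, aF (fun j => Odd (j + 0)) q (2 * k) = aP q := fun k => by simp [aF, cv_of_not]
  have hO : ∀ k, ∀ x z : ℝ, 0 ≤ x → q * x ^ 2 ≤ z → z < 1 → ∀ D, ∑ d ∈ range D,
      aF (fun j => Odd (j + 0)) q (2 * (k + 1) + 1) d * x ^ d ≤ (1 + x) ^ 4 * (1 - z)⁻¹ := fun k x z h1 h2 h3 D =>
    (sum_cv_le h1 h1 (fun _ => le_rfl) (sum_cv_le h1 h1 (fun _ => le_rfl) (sum_cv_le h1 h1 (fun _ => le_rfl)
      (sum_cv_le h1 h1 (fun _ => le_rfl) (sum_aP_le h1 h2 h3)))) D).trans_eq (by ring)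
  have h1 : ∀ m, (cc (aF (fun j => Odd (j + 0)) q) (2 * 0 + 1) m : ℝ) ≤ 28 / 9 * wq q m := fun m => by
    rw [cc_one]
    rcases m with _ | _ | _ | _ | m
    · norm_num [aF, cv, aP, wq]
    · norm_num [aF, cv, aP, wq]
    · norm_num [aF, cv, aP, wq]; linarith
    · norm_num [aF, cv, aP, wq, show Odd 3 by decide]; linarith
    simp only [aF, cv, odd_one, if_true, add_zero, show m + 1 + 1 + 1 + 1 = m + 2 + 2 from rfl,
      show m + 1 + 1 + 1 = m + 1 + 2 from rfl, show m + 1 + 1 = m + 2 from rfl, aP_add_two hq, wq_add_two]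
    push_cast
    obtain ⟨m, rfl | rfl⟩ := m.even_or_odd'
    · have h5 : (0 : ℝ) ≤ q ^ m := by positivity
      simp [aP, wq_even]
      nlinarith [mul_nonneg h5 (sub_nonneg.2 h2), mul_nonneg h5 (mul_nonneg (sub_nonneg.2 h2) (sub_nonneg.2 h2))]
    · have h6 : (0 : ℝ) ≤ q ^ m * q := by positivity
      simp [aP, add_assoc, parity_simps, pow_succ, wq_odd]
      nlinarith [mul_nonneg h6 (sub_nonneg.2 h2)]
  have := cc_wq_le hq hE hO (K := 84 / 5) (c := 7 / 6) (i := 2) (fun _ => rfl) (by norm_num) (by norm_num)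
    (fun m => (cc_step_two hq hE hO (cc_step_two hq hE hO h1) m).trans (mul_le_mul_of_nonneg_right (by norm_num [gW]) (wq_nonneg _ _)))
    (fun y h1 h2 => by
      norm_num at h2
      nlinarith [mul_pos h1 h1, pow_pos h1 3, pow_pos h1 4, pow_pos h1 5]) j (2 * n + 1)
  rw [wq_odd] at this
  exact_mod_cast (by linarith : (5 : ℝ) * cc (aF (fun j => Odd (j + 0)) q) j (2 * n + 1) ≤ 144 * q ^ n)

omit hq in
theorem cc_false_odd (j : ℕ) : ∀ m, Odd m → cc (aF (fun _ => False) q) j m = 0 := by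
  induction j with
  | zero => intro m h; rw [cc, if_neg h.pos.ne']
  | succ j ih =>
    refine fun m h => sum_eq_zero fun d hd => mul_eq_zero.2 ((d.even_or_odd).symm.imp (fun h => ?_) fun h' => ih _ ?_)
    · simp [aF, cv_of_not, aP, h]
    · exact Nat.Odd.sub_even ((Nat.le_div_iff_mul_le j.succ_pos).1 (Nat.le_of_lt_succ (mem_range.1 hd))) h (h'.mul_right _)

/-- The number of palindromic polynomials without the root `1`. -/
def aQ (q : ℕ) : ℕ → ℕ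
  | 0 => 1
  | 1 => 0
  | d + 2 => aP q (d + 2) - aP q d

/-- The numbers of data of split classes. -/
noncomputable def aS (q j : ℕ) : ℕ → ℕ := cv (Odd j) (cv (Odd j) (if j = 1 then aQ q else aP q))

theorem cc_aS_le (j n : ℕ) : 5 * cc (aS q) j (2 * n + 1) ≤ 24 * q ^ n := by
  have h2 : (3 : ℝ) ≤ q := by exact_mod_cast hq
  have hE : ∀ k, aS q (2 * k) = aP q := fun k => by simp [aS, cv_of_not]
  have hO : ∀ k, ∀ x z : ℝ, 0 ≤ x → q * x ^ 2 ≤ z → z < 1 → ∀ D, ∑ d ∈ range D,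
      aS q (2 * (k + 1) + 1) d * x ^ d ≤ (1 + x) ^ 2 * (1 - z)⁻¹ := fun k x z h1 h2 h3 D =>
    (sum_cv_le h1 h1 (fun _ => le_rfl) (sum_cv_le h1 h1 (fun _ => le_rfl) (by simpa using sum_aP_le h1 h2 h3)) D).trans_eq
      (by ring)
  have h3 : ∀ d, (aQ q (d + 2) : ℝ) = (q - 1) * aP q d := fun d => by
    rw [aQ, aP_add_two hq, ← Nat.sub_one_mul, Nat.cast_mul, Nat.cast_pred (by omega)]
  have h1 : ∀ m, (cc (aS q) (2 * (0 + 1)) m : ℝ) ≤ 4 / 3 * wq q m := fun m => by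
    induction m using Nat.strong_induction_on with | _ m ih => ?_
    have h4 : ∀ m, cc (aS q) (2 * (0 + 1)) m = ∑ d ∈ range (m / 2 + 1), aP q d * aS q 1 (m - d * 2) := fun m => by
      rw [← hE 1]; exact sum_congr rfl fun d _ => congrArg _ (cc_one _ _)
    rcases m with _ | _ | _ | _ | m
    · norm_num [h4, aS, cv, aP, aQ, wq]
    · norm_num [h4, aS, cv, aP, aQ, wq]
    · norm_num [h4, aS, cv, aP, h3, wq, aQ.eq_1, aQ.eq_2, sum_range_succ]; linarith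
    · norm_num [h4, aS, cv, aP, h3, wq, aQ.eq_1, aQ.eq_2, sum_range_succ, show Odd 3 by decide]; linarith
    have h5 := mul_le_mul_of_nonneg_left (ih m (by omega)) (Nat.cast_nonneg q)
    rw [h4] at h5 ⊢
    rw [show (m + 1 + 1 + 1 + 1) / 2 + 1 = m / 2 + 1 + 1 + 1 by omega, sum_range_succ', sum_range_succ']
    simp only [add_assoc, Nat.reduceAdd, aP_add_two hq, add_mul, Nat.reduceMul, Nat.add_sub_add_right, mul_assoc, ← mul_sum]
    generalize ∑ i ∈ range (m / 2 + 1), aP q i * aS q 1 (m - i * 2) = S at *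
    simp only [aS, cv, odd_one, if_true, Nat.sub_zero, show m + 4 = m + 2 + 2 from rfl, wq_add_two, Nat.cast_add, h3,
      show m + 3 = m + 1 + 2 from rfl, aP_add_two hq, Nat.cast_mul, show aP q 0 = 1 from rfl, show aP q 1 = 0 from rfl]
    obtain ⟨m, rfl | rfl⟩ := m.even_or_odd'
    · have h6 : (0 : ℝ) ≤ q ^ m := by positivity
      simp [aP, wq_even] at h5 ⊢
      nlinarith [mul_nonneg h6 (mul_nonneg (sub_nonneg.2 h2) (by linarith : (0 : ℝ) ≤ q - 1))]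
    · have h6 : (0 : ℝ) ≤ q ^ m * q := by positivity
      simp [aP, add_assoc, parity_simps, pow_succ, wq_odd] at h5 ⊢
      nlinarith [mul_nonneg h6 (sub_nonneg.2 h2)]
  have := cc_wq_le hq hE hO (K := 14 / 5) (c := 13 / 20) (i := 2) (fun _ => by rw [aS]; split_ifs <;> rfl) (by norm_num)
    (by norm_num) (fun m => (cc_step_two hq hE hO (cc_step_odd hq h1 (hO 0)) m).trans
      (mul_le_mul_of_nonneg_right (by norm_num [gW]) (wq_nonneg _ _))) (fun y h1 h2 => by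
      norm_num at h2
      nlinarith [mul_pos h1 h1, pow_pos h1 3, pow_pos h1 4, pow_pos h1 5]) j (2 * n + 1)
  rw [wq_odd] at this
  exact_mod_cast (by linarith : (5 : ℝ) * cc (aS q) j (2 * n + 1) ≤ 24 * q ^ n)

end Cfsg.Lib.GLC
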