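import Cfsg.Agent.Lib.GLC.ONum
import Cfsg.Agent.Lib.GLC.PalSeq2
import Cfsg.Agent.Lib.GLC.Index2

/-!
Class numbers of `Ω` in odd dimension.
-/

set_option autoImplicit false

namespace Cfsg.Lib.Orth

open Module Polynomial Cfsg.Lib.GLC Cfsg.Lib.Symp Cfsg.Lib.Unitary
open LinearMap hiding polar zero_apply add_apply sub_apply
open QuadraticMap (polarBilin)

universe w

variable {F : Type w} {V W : Type*} [Field F] [AddCommGroup V] [Module F V] [AddCommGroup W] [Module F W]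
  [Module.Finite F V] [Module.Finite F W] [Finite F]
  {B : LinearMap.BilinForm F V} {f : End F V} {C : LinearMap.BilinForm F W} {g : End F W} {a : ℕ} {c : F}
  {Q : QuadraticForm F V} {τ : ℤˣ}

theorem card_pal_eq (d : ℕ) : Nat.card {P : F[X] // Pal P ∧ P.natDegree = d} = aP (Nat.card F) d := by
  obtain ⟨n, rfl | rfl⟩ := d.even_or_odd'
  · simp [card_pal, aP]
  · simpa [aP] using (card_pal_le (F := F) (2 * n + 1)).2

theorem card_pal_ne (d : ℕ) : Nat.card {P : F[X] // (Pal P ∧ P.eval 1 ≠ 0) ∧ P.natDegree = d} ≤ aQ (Nat.card F) d := by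
  have := finite_natDegree (F := F) Pal
  have := finite_natDegree (F := F) fun P => Pal P ∧ P.eval 1 ≠ 0
  rcases d with _ | _ | d
  · exact card_natDegree_zero fun _ h => h.1.monic
  · have : IsEmpty {P : F[X] // (Pal P ∧ P.eval 1 ≠ 0) ∧ P.natDegree = 0 + 1} := ⟨fun P => by simpa [P.2.2] using P.2.1.1.2.2⟩
    simp
  refine Nat.le_sub_of_add_le ?_
  rw [← card_pal_eq, ← card_pal_eq, ← Nat.card_sum]
  refine Nat.card_le_card_of_injective (Sum.elim (fun P => ⟨P.1, P.2.1.1, P.2.2⟩) fun P => ⟨(X - Polynomial.C 1) ^ 2 * P.1,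
    (pal_pow (one_mul 1) even_two).mul P.2.1, by
      rw [((monic_X_sub_C _).pow _).natDegree_mul P.2.1.monic, natDegree_pow, natDegree_X_sub_C, P.2.2]; omega⟩) ?_
  rintro (P | P) (R | R) h <;> replace h := congrArg Subtype.val h <;> simp only [Sum.elim_inl, Sum.elim_inr] at h
  · exact congrArg _ (Subtype.ext h)
  · exact absurd (by simp [h]) P.2.1.2
  · exact absurd (by simp [← h]) R.2.1.2
  · exact congrArg _ (Subtype.ext (mul_left_cancel₀ (pow_ne_zero _ (X_sub_C_ne_zero _)) h))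

open Classical in
/-- Types of split classes. -/
def AdmS (V : Type*) [AddCommGroup V] [Module F V] [Module.Finite F V] (μ : Multiset F[X]) : Prop :=
  (∃ f : End F V, IsUnit f ∧ typ f = μ) ∧ μ.map rdual = μ ∧
    ∀ p, (¬ Odd p.2 → Even (μ.count (xp F p))) ∧ (Odd p.2 → μ.count (xp F p) ≤ 1)

theorem card_admS_le (h2 : (2 : F) ≠ 0) : Finite {μ // AdmS (F := F) V μ} ∧
    Nat.card {μ // AdmS (F := F) V μ} ≤ cc (aS (Nat.card F)) (finrank F V) (finrank F V) := by
  classical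
  let deg : (F[X] × Bool) × Bool → ℕ := fun y => y.1.1.natDegree + y.1.2.toNat + y.2.toNat
  let p : ℕ → (F[X] × Bool) × Bool → Prop := fun j y =>
    ((Pal y.1.1 ∧ (j = 1 → y.1.1.eval 1 ≠ 0)) ∧ (y.1.2 → Odd j)) ∧ (y.2 → Odd j)
  have h1 := fun j => card_cv (Odd j) (card_cv (Odd j) (p := fun P : F[X] => Pal P ∧ (j = 1 → P.eval 1 ≠ 0))
    (a := if j = 1 then aQ (Nat.card F) else aP (Nat.card F)) fun d => ⟨finite_natDegree _ _, by
      split_ifs with h
      · simpa [h] using card_pal_ne d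
      · simpa [h] using (card_pal_eq d).le⟩)
  have h3 := card_Sq_le (deg := deg) (p := p) (o := ((1, false), false)) (a := aS (Nat.card F))
    (by
      rintro i ⟨⟨P, a⟩, b⟩ h1 h2
      simp only [deg, Nat.add_eq_zero_iff, Bool.toNat_eq_zero] at h2
      simpa [h2] using eq_one_of_monic_natDegree_zero h1.1.1.1.monic h2.1.1)
    (by simp [deg]) (by simp [p, pal_one]) (fun j d => (h1 j d).1) (fun j d => (h1 j d).2) (finrank F V) (finrank F V)
  have h0 : ∀ j a : ℕ, (¬ Odd j → Even a) ∧ (Odd j → a ≤ 1) → ∃ b : Bool, (b → Odd j) ∧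
      ∃ k, a = b.toNat + 2 * k ∧ (Odd j → k = 0) := fun j a h => by
    by_cases e : Odd j
    · rcases Nat.le_one_iff_eq_zero_or_eq_one.1 (h.2 e) with rfl | rfl
      exacts [⟨false, by simp, 0, by simp⟩, ⟨true, fun _ => e, 0, by simp⟩]
    · obtain ⟨k, rfl⟩ := h.1 e
      exact ⟨false, by simp, k, by simp [two_mul, e]⟩
  have h4 : ∀ (x : {μ // AdmS (F := F) V μ}) j, ∃ y, p j y ∧
      GLC.sq x.1 j = (X - Polynomial.C 1) ^ y.1.2.toNat * (X - Polynomial.C (-1)) ^ y.2.toNat * y.1.1 := by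
    rintro ⟨_, ⟨f, hf, rfl⟩, h4, h5⟩ j
    obtain ⟨a, h6, k, h9, h7⟩ := h0 _ _ (h5 (1, j))
    obtain ⟨c, h10, l, h13, -⟩ := h0 _ _ (h5 (-1, j))
    replace h9 := (rm_sq (typ_pp f) 1 j).trans (by simpa [xp] using h9)
    obtain ⟨P, h14, h15⟩ := exists_pal h2 ⟨mc_sq_typ hf j, (sq_map _ (typ_pp f) (fun φ e h1 h2 h3 h4 => by
      have := coeff_zero_ne_of_dvd (dvd_pow_self φ h3.ne') ((blocks_typ f).isUnit_iff.1 hf _ h4)
      exact ⟨monic_dual this, irreducible_rdual h1 this h2⟩) j).symm.trans (congrArg (GLC.sq · j) h4)⟩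
      h9 ((rm_sq (typ_pp f) _ j).trans (by simpa [xp] using h13))
    refine ⟨((P, a), c), ⟨⟨⟨h14, fun e h => ?_⟩, h6⟩, h10⟩, h15⟩
    rw [h15, mul_assoc, rm_pow_mul (mul_ne_zero (pow_ne_zero _ (X_sub_C_ne_zero _)) h14.monic.ne_zero),
      rm_pow_mul h14.monic.ne_zero, if_pos rfl, h7 (e ▸ odd_one)] at h9
    have := (rootMultiplicity_pos h14.monic.ne_zero).2 h
    omega
  choose y h4 h5 using h4
  have h8 : ∀ x j, deg (y x j) = (GLC.sq x.1 j).natDegree := fun x j => by
    rw [h5, Monic.natDegree_mul (((monic_X_sub_C _).pow _).mul ((monic_X_sub_C _).pow _)) (h4 x j).1.1.1.monic,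
      ((monic_X_sub_C _).pow _).natDegree_mul ((monic_X_sub_C _).pow _)]
    simp only [deg, natDegree_pow, natDegree_X_sub_C]
    ring
  let φ : {μ // AdmS (F := F) V μ} → Sq deg p (finrank F V) (finrank F V) := fun x => ⟨y x, h4 x, by
    obtain ⟨f, -, hf⟩ := x.2.1
    simpa only [h8, ← hf] using sq_typ_mem f le_rfl⟩
  have h9 : Function.Injective φ := fun x x' h => by
    replace h : y x = y x' := congrArg Subtype.val h
    obtain ⟨f, -, hf⟩ := x.2.1
    obtain ⟨f', -, hf'⟩ := x'.2.1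
    exact Subtype.ext (eq_of_sq_eq (hf ▸ typ_pp f) (hf' ▸ typ_pp f') (funext fun j => by rw [h5, h5, h]))
  have := h3.1
  exact ⟨.of_injective φ h9, (Nat.card_le_card_of_injective φ h9).trans h3.2⟩

theorem sg_eq_of_disc (hf : FE 0 B f) (hg : FE 0 C g) (h1 : typ f = jt 1 {a}) (h2 : typ g = jt 1 {a}) (ha : Odd a)
    (h : disc (BilinMap.toQuadraticMap B) = disc (BilinMap.toQuadraticMap C)) : usg B f a = usg C g a := by
  obtain ⟨ν, h3, h4⟩ := exists_sqsign hf.two (-1)
  have h5 := disc_smul hf.nd' h3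
  rw [← (h1 ▸ blocks_typ f : Blocks f (jt 1 {a})).jt_sum, h4, Multiset.sum_singleton, ha.neg_one_pow] at h5
  have h6 : ∀ b, b ≠ a → usg (ν • B) f b = 1 := fun b hb => (hf.scale h3).sg_eq_one h1 (by simp [hb])
  by_contra h7
  by_cases h8 : usg (ν • B) f a = usg B f a
  · have := ((hf.scale h3).isim_of_sg hf (FE.isNilpotent_of_typ h1) (.refl _) (funext fun b => if hb : b = a then
      hb ▸ h8 else (h6 b hb).trans (hf.sg_eq_one h1 (by simp [hb])).symm)).disc_eq
    simp [h5, neg_eq_iff_eq_neg] at this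
  · have := ((hf.scale h3).isim_of_sg hg (FE.isNilpotent_of_typ h1) (sim_iff_typ_eq.2 (h1.trans h2.symm)) (funext fun b =>
      if hb : b = a then by rw [hb, Int.units_ne_iff_eq_neg.1 h8, Int.units_ne_iff_eq_neg.1 h7, neg_neg]
      else (h6 b hb).trans (hg.sg_eq_one h2 (by simp [hb])).symm)).disc_eq
    simp [h5, h, neg_eq_iff_eq_neg] at this

open Classical in
theorem exists_block (hf : FE 0 B f) (h1 : (X - Polynomial.C 1) ^ a ∈ typ f) (h2 : Odd a) (s : ℤˣ)
    (hs : (typ f).count ((X - Polynomial.C 1) ^ a) ≤ 1 → s = usg B f a) : ∃ (X Y : Submodule F V) (S : OSplit B f X Y),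
      typ (f.restrict S.invL) = jt 1 {a} ∧ usg (B.restrict X) (f.restrict S.invL) a = s := by
  obtain ⟨k, R, h5, h6⟩ := exists_cop f
  obtain ⟨S, h7, h8⟩ := hf.osplit_one h5 h6
  obtain ⟨d, -, h9⟩ := exists_jt_one h7
  have h3 : Function.Injective fun k : ℕ => (X - Polynomial.C 1 : F[X]) ^ k := fun k l h => by
    simpa only [natDegree_pow, natDegree_X_sub_C, mul_one] using congrArg natDegree h
  rw [S.typ_eq, Multiset.count_add, Multiset.count_eq_zero.2 (not_mem_typ_of_fix h8), h9, jt,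
    Multiset.count_map_eq_count' _ _ h3, (hf.sg_split S h7 h8).1] at hs
  rw [S.typ_eq, Multiset.mem_add, or_iff_left (not_mem_typ_of_fix h8), h9] at h1
  obtain ⟨d, rfl⟩ := Multiset.le_iff_exists_add.1 (Multiset.singleton_le.2 ((Multiset.mem_map_of_injective h3).1 h1))
  obtain ⟨X, Y, S', h10, h11, -⟩ := (hf.left S).exists_osplit_sg h9 (fun b hb => by
    rw [Multiset.count_eq_zero.2 (by simp; grind)]; simp) (σ₁ := Pi.mulSingle a s) 
    (σ₂ := Pi.mulSingle a s * usg (B.restrict _) (f.restrict S.invL))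
    (fun b hb => Pi.mulSingle_eq_of_ne (by simp at hb; grind) _) (fun b hb => by
      by_cases e : b = a
      · simp [e, ← hs (by simpa [e, h2] using hb)]
      · simpa [e] using (hf.left S).supp h9 b (by simpa [e] using hb)) (by
      rw [← mul_assoc, ← Pi.mulSingle_mul, Int.units_mul_self, Pi.mulSingle_one, one_mul])
  obtain ⟨X', Y', S'', h12, -⟩ := ((isim_prodAssoc ..).symm.trans ((((hf.left S).osplit_isim S').prodMap (.refl ..)).trans
    (hf.osplit_isim S))).symm.exists_osplit_prod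
  exact ⟨X', Y', S'', h12.sim.typ_eq.trans h10, by rw [h12.sg_eq hf.two, h11, Pi.mulSingle_eq_same]⟩

/-- All invariant non-degenerate subspaces of odd dimension have the same discriminant. -/
def Spl (B : LinearMap.BilinForm F V) (τ : ℤˣ) (f : End F V) : Prop := ∀ X Y : Submodule F V, OSplit B f X Y →
  Odd (finrank F X) → disc (BilinMap.toQuadraticMap (B.restrict X)) = τ

omit [Finite F] in
theorem Spl.smul (h : Spl B τ f) (hc : c * c = 1) : Spl B τ (c • f) := fun X Y S => h X Y ⟨S.compl, S.orth,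
  fun x hx => by simpa [smul_smul, hc] using X.smul_mem c (S.invL x hx),
  fun x hx => by simpa [smul_smul, hc] using Y.smul_mem c (S.invR x hx)⟩

open Classical in
theorem Spl.eq {g : End F V} (h : Spl B τ f) (h' : Spl B τ g) (hf : FE 0 B f) (hg : FE 0 B g) (ha : Odd a)
    (h1 : (X - Polynomial.C 1) ^ a ∈ typ f) (h2 : (X - Polynomial.C 1) ^ a ∈ typ g) {s t : ℤˣ}
    (hs : (typ f).count ((X - Polynomial.C 1) ^ a) ≤ 1 → s = usg B f a)
    (ht : (typ g).count ((X - Polynomial.C 1) ^ a) ≤ 1 → t = usg B g a) : s = t := by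
  obtain ⟨X, Y, S, h3, rfl⟩ := exists_block hf h1 ha s hs
  obtain ⟨X', Y', S', h4, rfl⟩ := exists_block hg h2 ha t ht
  exact sg_eq_of_disc (hf.left S) (hg.left S') h3 h4 ha ((h X Y S ((h3 ▸ blocks_typ _ : Blocks _ (jt (1 : F) {a})).jt_sum ▸ ha)).trans
    (h' X' Y' S' ((h4 ▸ blocks_typ _ : Blocks _ (jt (1 : F) {a})).jt_sum ▸ ha)).symm)

theorem Spl.admS (h : Spl B τ f) (hf : FE 0 B f) : AdmS V (typ f) := by
  classical
  refine ⟨hf.adm.1, hf.adm.2.1, fun p => ⟨(hf.adm.2.2 p).1, fun ha => by_contra fun h1 => ?_⟩⟩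
  have hc : ((p.1 : ℤ) : F) * (p.1 : ℤ) = 1 := by rw [← Int.cast_mul, Int.units_coe_mul_self, Int.cast_one]
  rw [← count_typ_smul hc] at h1
  have h2 := Multiset.count_pos.1 (zero_lt_one.trans (not_le.1 h1))
  exact absurd ((h.smul hc).eq (h.smul hc) (hf.smul hc) (hf.smul hc) ha h2 h2 (s := 1) (t := -1) (absurd · h1)
    (absurd · h1)) (by decide)

theorem Spl.isim {g : End F V} (h : Spl B τ f) (h' : Spl B τ g) (hf : FE 0 B f) (hg : FE 0 B g) (e : typ f = typ g) :
    ISim B f B g := by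
  classical
  refine hf.isim_of_dat hg (Prod.ext e (funext fun p => ?_))
  have hc : ((p.1 : ℤ) : F) * (p.1 : ℤ) = 1 := by rw [← Int.cast_mul, Int.units_coe_mul_self, Int.cast_one]
  have h1 := ((sim_iff_typ_eq.2 e).smul ((p.1 : ℤ) : F)).typ_eq
  by_cases h2 : (X - Polynomial.C 1) ^ p.2 ∈ typ (((p.1 : ℤ) : F) • f) ∧ Odd p.2
  · exact (h.smul hc).eq (h'.smul hc) (hf.smul hc) (hg.smul hc) h2.2 h2.1 (h1 ▸ h2.1) (fun _ => rfl) fun _ => rfl
  · exact (not_not.1 (mt (hf.smul hc).mem_of_sg h2)).trans (not_not.1 (mt (hg.smul hc).mem_of_sg (h1 ▸ h2))).symm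

theorem card_commutator_classes (hQ : ND Q) {n : ℕ} (hn : 1 ≤ n) (hV : finrank F V = 2 * n + 1) :
    Nat.card F ^ n ≤ 2 * Nat.card (ConjClasses (commutator (O Q))) ∧
      5 * Nat.card (ConjClasses (commutator (O Q))) ≤ 36 * Nat.card F ^ n := by
  have h2 := two_ne_zero_of_odd_finrank hQ ⟨n, hV⟩
  have h3 : dickson hQ (O.neg Q) = -1 := by rw [dickson_neg, hV, Odd.neg_one_pow ⟨n, rfl⟩]
  obtain ⟨χ, h4, h5⟩ : ∃ χ : O Q →* ℤˣ, (∀ g, dickson hQ g = 1 → χ g = spinor hQ g) ∧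
      ∀ g, dickson hQ g = -1 → χ g = spinor hQ g * spinor hQ (O.neg Q) := by
    rcases Int.units_eq_one_or (spinor hQ (O.neg Q)) with h | h
    · exact ⟨spinor hQ, by simp [h]⟩
    · exact ⟨spinor hQ * dickson hQ, by simp +contextual [h]⟩
  haveI : Finite V := Module.finite_of_finite F
  obtain ⟨g, hg⟩ := dsHom_surjective hQ h2 (by omega) (1, -1)
  have h6 := four_mul_card_inf χ (dickson hQ) (index_ker_of_neg_one ((h4 g (congrArg Prod.fst hg)).trans
    (congrArg Prod.snd hg))) neg_mem_center (by simp [h5 _ h3]) h3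
  rw [show (dickson hQ).ker ⊓ χ.ker = commutator (O Q) from Subgroup.ext fun g => by
    rw [mem_commutator_iff hQ (not_exc_of_two_ne_zero h2)]
    exact and_congr_right fun h => h4 g h ▸ Iff.rfl] at h6
  have h7 : ∀ x y : ConjClasses (O Q), ISim (polarBilin Q) x.out.1 (polarBilin Q) y.out.1 → x = y := fun x y h =>
    Quotient.out_equiv_out.1 (O.isConj_iff.2 ((O.oE hQ _).qsim_of_isim (O.oE hQ _) h (.inl h2)))
  constructor
  · suffices 2 * Nat.card F ^ n ≤ Nat.card (ConjClasses (O Q)) by omega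
    have h8 : ∀ (ε : ℤˣ) (P : F[X]), Pal P ∧ P.natDegree = 2 * n → ∃ x : O Q, (x.1 : End F V).charpoly =
        (X - Polynomial.C ((ε : ℤ) : F)) * P := fun ε P h => by
      have hc : ((ε : ℤ) : F) * (ε : ℤ) = 1 := by rw [← Int.cast_mul, Int.units_coe_mul_self, Int.cast_one]
      obtain ⟨f, h8, h9⟩ := (oc_of_root h2 (P := (X - Polynomial.C ((ε : ℤ) : F)) * P) ⟨⟨(monic_X_sub_C _).mul h.1.monic,
        by simp [h.1.1, left_ne_zero_of_mul_eq_one hc]⟩, by rw [map_mul, rdual_X_sub_C hc, h.1.2.1]⟩ (by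
          rcases Int.units_eq_one_or ε with rfl | rfl <;> simp) _).exists_oE h2 hQ (by
            rw [(monic_X_sub_C _).natDegree_mul h.1.monic, natDegree_X_sub_C, h.2, hV, add_comm])
      obtain ⟨x, rfl⟩ := h8.exists_O
      exact ⟨x, h9⟩
    choose x hx using h8
    rw [← Fintype.card_units_int, ← card_pal, ← Nat.card_eq_fintype_card, ← Nat.card_prod]
    refine Nat.card_le_card_of_injective (fun p => .mk (x p.1 p.2 p.2.2)) fun ⟨ε, P⟩ ⟨δ, R⟩ h => ?_
    have h9 := (O.isConj_iff.1 (ConjClasses.mk_eq_mk_iff_isConj.1 h)).sim.charpoly_eq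
    rw [hx, hx] at h9
    obtain rfl : ε = δ := Units.ext (by
      have : ((ε : ℤ) : F) = (δ : ℤ) := by simpa [P.2.1.1, R.2.1.1] using congrArg (coeff · 0) h9
      rcases Int.units_eq_one_or ε with rfl | rfl <;> rcases Int.units_eq_one_or δ with rfl | rfl <;>
        first | rfl | exact absurd (by simp at this; linear_combination (exp := 1) this) h2
                    | exact absurd (by simp at this; linear_combination (exp := 1) -this) h2)
    exact Prod.ext rfl (Subtype.ext (mul_left_cancel₀ (X_sub_C_ne_zero _) h9))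
  have h8 : 3 ≤ Nat.card F := by
    have := Finite.one_lt_card (α := F)
    have := Fintype.ofFinite F
    have := FiniteField.odd_card_of_char_ne_two (mt ringChar_eq_two_iff.1 h2)
    rw [← Nat.card_eq_fintype_card] at this
    omega
  have h9 := two_mul_card_le h2 (fun C : ConjClasses (O Q) => (C.out.1 : End F V)) (fun C => (O.oE hQ _).fE h2) h7
  rw [cc_false_odd _ _ ⟨n, hV⟩, hV] at h9
  have h10 : ∀ x : O Q, (∀ g, Commute x g → χ g = 1) → Spl (polarBilin Q) (spinor hQ (O.neg Q)) x.1 := fun x h X Y S hX => by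
    have T : IsOSum Q X Y := ⟨S.compl, S.orth⟩
    have h10 : ∀ w ∈ X, (T.sumMap (O.neg _, 1)).1 w = -w := fun w hw => T.sumMap_left _ ⟨w, hw⟩
    have h11 : ∀ w ∈ Y, (T.sumMap (O.neg _, 1)).1 w = w := fun w hw => T.sumMap_right _ ⟨w, hw⟩
    obtain ⟨h12, h13⟩ := dickson_spinor_of_orth hQ T h2 h10 h11
    have := h (T.sumMap (O.neg _, 1)) (T.ext (fun w hw => by simp [O.mul_apply, h10 w hw, h10 (x.1 w) (S.invL w hw)])
      fun w hw => by simp [O.mul_apply, h11 w hw, h11 (x.1 w) (S.invR w hw)])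
    rw [h5 _ (h12.trans hX.neg_one_pow), h13, ← disc_smul (T.nd_left hQ) h2] at this
    exact (disc_congr (equivalent_of (.refl _ _) fun v => by simp [polar_self'])).trans
      ((eq_inv_of_mul_eq_one_left this).trans (Int.units_inv_eq_self _))
  obtain ⟨_, h11⟩ := card_admS_le (V := V) h2
  have h12 := (Nat.card_le_card_of_injective (fun C : {C : ConjClasses (O Q) // ∀ g, Commute C.out g → χ g = 1} =>
    (⟨_, (h10 _ C.2).admS ((O.oE hQ _).fE h2)⟩ : {μ // AdmS V μ})) fun C D h => Subtype.ext (h7 _ _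
      ((h10 _ C.2).isim (h10 _ D.2) ((O.oE hQ _).fE h2) ((O.oE hQ _).fE h2) (congrArg Subtype.val h)))).trans h11
  rw [hV] at h12
  have := cc_odd_le h8 (2 * n + 1) n
  have := cc_aS_le h8 (2 * n + 1) n
  omega

end Cfsg.Lib.Orth
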