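import Cfsg.Agent.Lib.GLC.PalSeq
import Cfsg.Agent.Lib.Symp.WallT

/-!
Palindromic polynomials and the data of classes of symplectic and orthogonal groups in odd characteristic.
-/

set_option autoImplicit false

namespace Cfsg.Lib.GLC

open Finset Polynomial Module Cfsg.Lib.Symp Cfsg.Lib.Unitary

variable {F V : Type*} [Field F] [AddCommGroup V] [Module F V] {P u : F[X]} {c : F} {μ : Multiset F[X]}

/-- Palindromic polynomials of even degree. -/
def Pal (P : F[X]) : Prop := P.coeff 0 = 1 ∧ rdual P = P ∧ Even P.natDegree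

theorem Pal.monic (h : Pal P) : P.Monic := h.2.1 ▸ monic_dual (h.1 ▸ one_ne_zero)

theorem pal_one : Pal (1 : F[X]) := ⟨by simp, map_one _, by simp⟩

theorem Pal.mul {Q : F[X]} (h : Pal P) (h' : Pal Q) : Pal (P * Q) :=
  ⟨by simp [h.1, h'.1], by rw [map_mul, h.2.1, h'.2.1], h.monic.natDegree_mul h'.monic ▸ h.2.2.add h'.2.2⟩

theorem pal_pow (hc : c * c = 1) {k : ℕ} (hk : Even k) : Pal ((X - C c) ^ k) := by
  obtain ⟨k, rfl⟩ := hk
  exact ⟨by simp [coeff_zero_eq_eval_zero, pow_add, ← mul_pow, hc], by rw [map_pow, rdual_X_sub_C hc], by simp⟩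

theorem card_pal [Finite F] (n : ℕ) : Nat.card {P : F[X] // Pal P ∧ P.natDegree = 2 * n} = Nat.card F ^ n := by
  rw [← Nat.card_fin n, ← Nat.card_fun, Nat.card_fin]
  refine Nat.card_congr (.ofBijective (fun P j => P.1.coeff (j + 1)) ⟨fun P Q h => ?_, fun c => ?_⟩)
  · have h1 : ∀ i ≤ n, P.1.coeff i = Q.1.coeff i := fun i hi => by
      rcases i with _ | i
      exacts [P.2.1.1.trans Q.2.1.1.symm, congrFun h ⟨i, hi⟩]
    have h2 : ∀ P : {P : F[X] // Pal P ∧ P.natDegree = 2 * n}, ∀ i ≤ 2 * n, P.1.coeff (2 * n - i) = P.1.coeff i :=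
      fun P i hi => by simpa [P.2.1.1, P.2.2] using coeff_of_rdual_eq P.2.1.2.1 (by simp [P.2.1.1]) (hi.trans P.2.2.ge)
    refine Subtype.ext (ext_iff_natDegree_le P.2.2.le Q.2.2.le |>.2 fun i hi => ?_)
    rcases le_total i n with h3 | h3
    · exact h1 i h3
    · rw [← h2 P i hi, ← h2 Q i hi, h1 _ (by omega)]
  · let a : ℕ → F := fun j => if h : j - 1 < n ∧ j ≠ 0 then c ⟨j - 1, h.1⟩ else 1
    let P : F[X] := ∑ i ∈ .range (2 * n + 1), monomial i (a (min i (2 * n - i)))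
    have hP : ∀ i, P.coeff i = if i < 2 * n + 1 then a (min i (2 * n - i)) else 0 := fun i => by
      simp [P, coeff_monomial]
    have h1 : P.natDegree = 2 * n := natDegree_eq_of_le_of_coeff_ne_zero (natDegree_le_iff_coeff_eq_zero.2
      fun i hi => by rw [hP, if_neg (by omega)]) (by simp [hP, a])
    have h2 : P.coeff 0 = 1 := by simp [hP, a]
    refine ⟨⟨P, ⟨h2, rdual_eq_of_coeff h2 (h1 ▸ fun i hi => ?_), h1 ▸ even_two_mul n⟩, h1⟩, funext fun j => ?_⟩
    · rw [hP, hP, if_pos (by omega), if_pos (by omega), Nat.sub_sub_self hi, min_comm]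
    · simp only [hP]; rw [if_pos (by omega), min_eq_left (by omega)]; simp [a]

theorem card_pal_le [Finite F] (d : ℕ) : Finite {P : F[X] // Pal P ∧ P.natDegree = d} ∧
    Nat.card {P : F[X] // Pal P ∧ P.natDegree = d} ≤ aP (Nat.card F) d := by
  refine ⟨finite_natDegree _ _, ?_⟩
  obtain ⟨n, rfl | rfl⟩ := d.even_or_odd'
  · simp [card_pal, aP]
  · have : IsEmpty {P : F[X] // Pal P ∧ P.natDegree = 2 * n + 1} := ⟨fun P => by simpa [P.2.2] using P.2.1.2.2⟩
    simp

open Classical in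
theorem rm_pow_mul (hP : P ≠ 0) (c c' : F) (k : ℕ) :
    rootMultiplicity c' ((X - C c) ^ k * P) = (if c' = c then k else 0) + rootMultiplicity c' P := by
  simp [← count_roots, roots_mul (mul_ne_zero (pow_ne_zero k (X_sub_C_ne_zero c)) hP), Multiset.count_singleton]

open Classical in
theorem rm_sq (h : ∀ P ∈ μ, PP P) (c : F) (j : ℕ) : rootMultiplicity c (sq μ j) = μ.count ((X - C c) ^ j) := by
  induction μ using Multiset.induction_on with
  | empty => exact rootMultiplicity_C 1 c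
  | cons P μ ih =>
    have h' := fun P hP => h P (Multiset.mem_cons_of_mem hP)
    obtain ⟨φ, e, h1, h2, h3, rfl⟩ := h P (Multiset.mem_cons_self _ _)
    rw [sq_cons, rtx_pow h1 h2 h3, Multiset.count_cons, ← ih h', rootMultiplicity_mul (mul_ne_zero
      (by split_ifs; exacts [h1.ne_zero, one_ne_zero]) (sq_monic h' j).ne_zero), add_comm]
    simp only [eq_comm (b := φ ^ e), pow_eq_pow_iff h1 h2 (monic_X_sub_C c) (irreducible_X_sub_C c) h3]
    congr 1
    by_cases h4 : φ = X - C c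
    · subst h4; by_cases h5 : e = j <;> simp [h5, rootMultiplicity_X_sub_C_self]
    · split_ifs <;> simp_all [rootMultiplicity_eq_zero (mt (eq_X_sub_C_of_root h1 h2) h4)]

open Classical in
theorem exists_strip (hc : c * c = 1) (h : MC u ∧ rdual u = u) {k : ℕ} (hk : k ≤ rootMultiplicity c u) :
    ∃ P, (MC P ∧ rdual P = P) ∧ u = (X - C c) ^ k * P ∧
      ∀ c', rootMultiplicity c' u = (if c' = c then k else 0) + rootMultiplicity c' P := by
  obtain ⟨P, rfl⟩ := (le_rootMultiplicity_iff h.1.1.ne_zero).1 hk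
  refine ⟨P, ⟨⟨((monic_X_sub_C c).pow k).of_mul_monic_left h.1.1, coeff_zero_ne_of_dvd (dvd_mul_left _ _) h.1.2⟩,
    mul_left_cancel₀ (pow_ne_zero k (X_sub_C_ne_zero c)) ?_⟩, rfl,
    fun c' => rm_pow_mul (right_ne_zero_of_mul h.1.1.ne_zero) _ _ _⟩
  simpa only [map_mul, map_pow, rdual_X_sub_C hc] using h.2

theorem exists_pal (h2 : (2 : F) ≠ 0) (h : MC u ∧ rdual u = u) {a b k l : ℕ} (ha : rootMultiplicity 1 u = a + 2 * k)
    (hb : rootMultiplicity (-1) u = b + 2 * l) : ∃ P, Pal P ∧ u = (X - C 1) ^ a * (X - C (-1)) ^ b * P := by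
  have h3 : (1 : F) ≠ -1 := fun h => h2 (by linear_combination h)
  obtain ⟨P, h4, rfl, h5⟩ := exists_strip (one_mul 1) h ha.ge
  obtain ⟨P, h6, rfl, h7⟩ := exists_strip (c := -1) (by simp) h4 (k := b + 2 * l) (by
    rw [← hb, h5, if_neg h3.symm, zero_add])
  have h8 : ∀ c, rootMultiplicity c P = 0 → P.eval c ≠ 0 := fun c h e =>
    h6.1.1.ne_zero (rootMultiplicity_eq_zero_iff.1 h e)
  have := even_of_rdual_eq h6.1.1 h6.2 h6.1.2 (h8 _ (by
    have := h5 1; rw [ha, h7, if_pos rfl, if_neg h3] at this; omega)) (h8 _ (by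
    have := h5 (-1); rw [hb, h7, if_pos rfl, if_neg h3.symm] at this; omega))
  exact ⟨_, (pal_pow (one_mul 1) (even_two_mul k)).mul ((pal_pow (c := -1) (by simp) (even_two_mul l)).mul
    ⟨this.1, h6.2, this.2⟩), by ring⟩

theorem exists_bits {a : ℕ} {σ : ℤˣ} {t : Prop} (h : (¬ t → Even a) ∧ (σ ≠ 1 → a ≠ 0 ∧ t)) : ∃ b b' : Bool,
    (b → t) ∧ (b' → t) ∧ σ = (if b' then -1 else 1) ∧ ∃ k, a = b.toNat + b'.toNat + 2 * k := by
  obtain ⟨k, rfl | rfl⟩ := a.even_or_odd' <;> rcases Int.units_eq_one_or σ with rfl | rfl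
  · exact ⟨false, false, by simp, by simp, rfl, k, by simp⟩
  · have := h.2 (by decide)
    exact ⟨true, true, fun _ => this.2, fun _ => this.2, rfl, k - 1, by simp; omega⟩
  · exact ⟨true, false, fun _ => by_contra fun e => by simpa using h.1 e, by simp, rfl, k, by simp [add_comm]⟩
  · exact ⟨false, true, by simp, fun _ => (h.2 (by decide)).2, rfl, k, by simp [add_comm]⟩

/-- The elementary divisor at a place. -/
noncomputable abbrev xp (F : Type*) [Field F] (p : ℤˣ × ℕ) : F[X] := (X - C ((p.1 : ℤ) : F)) ^ p.2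

open Classical in
/-- Admissible data: a type and signs. -/
def Adm (V : Type*) [AddCommGroup V] [Module F V] [Module.Finite F V] (t : ℕ → Prop)
    (x : Multiset F[X] × (ℤˣ × ℕ → ℤˣ)) : Prop :=
  (∃ f : End F V, IsUnit f ∧ typ f = x.1) ∧ x.1.map rdual = x.1 ∧
    ∀ p, (¬ t p.2 → Even (x.1.count (xp F p))) ∧ (x.2 p ≠ 1 → xp F p ∈ x.1 ∧ t p.2)

theorem card_adm_le [Finite F] [Module.Finite F V] (h2 : (2 : F) ≠ 0) (t : ℕ → Prop) :
    Finite {x // Adm (F := F) V t x} ∧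
      Nat.card {x // Adm (F := F) V t x} ≤ cc (aF t (Nat.card F)) (finrank F V) (finrank F V) := by
  classical
  let deg : (((F[X] × Bool) × Bool) × Bool) × Bool → ℕ := fun y =>
    y.1.1.1.1.natDegree + y.1.1.1.2.toNat + y.1.1.2.toNat + y.1.2.toNat + y.2.toNat
  let p : ℕ → (((F[X] × Bool) × Bool) × Bool) × Bool → Prop := fun j y =>
    (((Pal y.1.1.1.1 ∧ (y.1.1.1.2 → t j)) ∧ (y.1.1.2 → t j)) ∧ (y.1.2 → t j)) ∧ (y.2 → t j)
  have h1 := fun j => card_cv (t j) (card_cv (t j) (card_cv (t j) (card_cv (t j) (card_pal_le (F := F)))))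
  have h3 := card_Sq_le (deg := deg) (p := p) (o := ((((1, false), false), false), false)) (a := aF t (Nat.card F))
    (by
      rintro i ⟨⟨⟨⟨P, a⟩, b⟩, c⟩, d⟩ h1 h2
      simp only [deg, Nat.add_eq_zero_iff, Bool.toNat_eq_zero] at h2
      simpa [h2] using eq_one_of_monic_natDegree_zero h1.1.1.1.1.monic h2.1.1.1.1)
    (by simp [deg]) (by simp [p, pal_one]) (fun j d => (h1 j d).1) (fun j d => (h1 j d).2) (finrank F V) (finrank F V)
  have h4 : ∀ (x : {x // Adm (F := F) V t x}) j, ∃ y, p j y ∧ sq x.1.1 j = (X - C 1) ^ (y.1.1.1.2.toNat + y.1.1.2.toNat) *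
      (X - C (-1)) ^ (y.1.2.toNat + y.2.toNat) * y.1.1.1.1 ∧ x.1.2 (1, j) = (if y.1.1.2 then -1 else 1) ∧
      x.1.2 (-1, j) = (if y.2 then -1 else 1) := by
    rintro ⟨⟨μ, σ⟩, ⟨f, hf, h⟩, h4, h5⟩ j
    obtain rfl : typ f = μ := h
    obtain ⟨a, b, h6, h7, h8, k, h9⟩ := exists_bits (((h5 (1, j)).imp_right fun h h' => (h h').imp_left
      Multiset.count_ne_zero.2))
    obtain ⟨c, d, h10, h11, h12, l, h13⟩ := exists_bits (((h5 (-1, j)).imp_right fun h h' => (h h').imp_left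
      Multiset.count_ne_zero.2))
    obtain ⟨P, h14, h15⟩ := exists_pal h2 ⟨mc_sq_typ hf j, (sq_map _ (typ_pp f) (fun φ e h1 h2 h3 h4 => by
      have := coeff_zero_ne_of_dvd (dvd_pow_self φ h3.ne') ((blocks_typ f).isUnit_iff.1 hf _ h4)
      exact ⟨monic_dual this, irreducible_rdual h1 this h2⟩) j).symm.trans (congrArg (sq · j) h4)⟩
      ((rm_sq (typ_pp f) 1 j).trans (by simpa [xp] using h9)) ((rm_sq (typ_pp f) _ j).trans (by simpa [xp] using h13))
    exact ⟨((((P, a), b), c), d), ⟨⟨⟨⟨h14, h6⟩, h7⟩, h10⟩, h11⟩, h15, h8, h12⟩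
  choose y h4 h5 h6 h7 using h4
  have h8 : ∀ x j, deg (y x j) = (sq x.1.1 j).natDegree := fun x j => by
    rw [h5, Monic.natDegree_mul (((monic_X_sub_C _).pow _).mul ((monic_X_sub_C _).pow _)) (h4 x j).1.1.1.1.monic,
      ((monic_X_sub_C _).pow _).natDegree_mul ((monic_X_sub_C _).pow _)]
    simp only [deg, natDegree_pow, natDegree_X_sub_C]
    ring
  let φ : {x // Adm (F := F) V t x} → Sq deg p (finrank F V) (finrank F V) := fun x => ⟨y x, h4 x, by
    obtain ⟨f, -, hf⟩ := x.2.1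
    simpa only [h8, ← hf] using sq_typ_mem f le_rfl⟩
  have h9 : Function.Injective φ := fun x x' h => by
    replace h : y x = y x' := congrArg Subtype.val h
    obtain ⟨f, -, hf⟩ := x.2.1
    obtain ⟨f', -, hf'⟩ := x'.2.1
    refine Subtype.ext (Prod.ext (eq_of_sq_eq (hf ▸ typ_pp f) (hf' ▸ typ_pp f') (funext fun j => by rw [h5, h5, h]))
      (funext fun ⟨ε, j⟩ => ?_))
    rcases Int.units_eq_one_or ε with rfl | rfl
    · rw [h6, h6, h]
    · rw [h7, h7, h]
  have := h3.1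
  exact ⟨.of_injective φ h9, (Nat.card_le_card_of_injective φ h9).trans h3.2⟩

end Cfsg.Lib.GLC
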