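import Cfsg.Agent.Lib.GLC.SeqBound

/-!
Numerical bounds for the class numbers of symplectic and orthogonal groups in odd characteristic.
-/

set_option autoImplicit false

namespace Cfsg.Lib.GLC

open Finset

open Classical in
/-- Multiplication of the generating function by `1 + s` if `t` holds. -/
noncomputable def cv (t : Prop) (a : ℕ → ℕ) : ℕ → ℕ
  | 0 => a 0
  | d + 1 => a (d + 1) + if t then a d else 0

theorem card_cv {M : Type*} {p : M → Prop} {deg : M → ℕ} {a : ℕ → ℕ} (t : Prop)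
    (h : ∀ d, Finite {x // p x ∧ deg x = d} ∧ Nat.card {x // p x ∧ deg x = d} ≤ a d) (d : ℕ) :
    Finite {y : M × Bool // (p y.1 ∧ (y.2 → t)) ∧ deg y.1 + y.2.toNat = d} ∧
      Nat.card {y : M × Bool // (p y.1 ∧ (y.2 → t)) ∧ deg y.1 + y.2.toNat = d} ≤ cv t a d := by
  classical
  have := fun d => (h d).1
  let f : {y : M × Bool // (p y.1 ∧ (y.2 → t)) ∧ deg y.1 + y.2.toNat = d} →
      {x // p x ∧ deg x = d} ⊕ (PLift (t ∧ d ≠ 0) × {x // p x ∧ deg x = d - 1}) := fun y => match y with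
    | ⟨(x, false), h⟩ => .inl ⟨x, h.1.1, h.2⟩
    | ⟨(x, true), h⟩ => .inr (⟨h.1.2 rfl, h.2 ▸ Nat.succ_ne_zero _⟩, ⟨x, h.1.1, h.2 ▸ rfl⟩)
  have hf : Function.Injective f := by
    rintro ⟨⟨x, _ | _⟩, _⟩ ⟨⟨y, _ | _⟩, _⟩ h <;> simp_all [f]
  refine ⟨.of_injective f hf, (Nat.card_le_card_of_injective f hf).trans ?_⟩
  rw [Nat.card_sum, Nat.card_prod]
  rcases d with _ | d
  · simpa [cv] using (h 0).2
  · by_cases ht : t
    · simpa [cv, ht] using Nat.add_le_add (h _).2 (h _).2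
    · simpa [cv, ht] using (h _).2

theorem sum_cv_le {t : Prop} {a : ℕ → ℕ} {x y A : ℝ} (hx : 0 ≤ x) (hy : 0 ≤ y) (ht : t → x ≤ y)
    (h : ∀ D, ∑ d ∈ range D, a d * x ^ d ≤ A) (D : ℕ) : ∑ d ∈ range D, cv t a d * x ^ d ≤ (1 + y) * A := by
  have hA : 0 ≤ A := by simpa using h 0
  rcases D with _ | D
  · simp only [range_zero, sum_empty]; positivity
  have h1 := h (D + 1)
  rw [sum_range_succ'] at h1 ⊢
  by_cases h2 : t
  · have := mul_le_mul (ht h2) (h D) (sum_nonneg fun _ _ => by positivity) hy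
    rw [mul_sum, sum_congr rfl (g := fun d => a d * x ^ (d + 1)) fun _ _ => by ring] at this
    simp only [cv, h2, if_true, Nat.cast_add, add_mul, sum_add_distrib]
    linarith
  · simp only [cv, h2, if_false, add_zero]
    nlinarith

/-- The number of palindromic polynomials. -/
def aP (q d : ℕ) : ℕ := if Even d then q ^ (d / 2) else 0

theorem sum_aP_le {q : ℕ} {x z : ℝ} (hx : 0 ≤ x) (h : q * x ^ 2 ≤ z) (hz : z < 1) (D : ℕ) :
    ∑ d ∈ range D, aP q d * x ^ d ≤ (1 - z)⁻¹ := by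
  have h1 : ∀ D, ∑ d ∈ range (2 * D), aP q d * x ^ d = ∑ d ∈ range D, (q * x ^ 2) ^ d := fun D => by
    induction D with
    | zero => simp
    | succ D ih => rw [mul_add, sum_range_succ, sum_range_succ, ih]; simp [sum_range_succ, aP, mul_pow, pow_mul]
  refine (sum_le_sum_of_subset_of_nonneg (range_mono (by omega : D ≤ 2 * D)) fun _ _ _ => by positivity).trans
    ((h1 D).trans_le ((geom_le (by positivity) (h.trans_lt hz) D).trans ?_))
  gcongr

/-- The numbers of data in degree `d` at place `j`. -/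
noncomputable def aF (t : ℕ → Prop) (q j : ℕ) : ℕ → ℕ := cv (t j) (cv (t j) (cv (t j) (cv (t j) (aP q))))

variable {t : ℕ → Prop} {q : ℕ} {K β γ c : ℝ}

theorem cc_aF_step (hq : 0 < q) {j : ℕ} {y z : ℝ} (h : ∀ m, (cc (aF t q) j m : ℝ) ≤ K * √q ^ m) (hy : 0 ≤ y)
    (ht : t (j + 1) → (√q)⁻¹ ^ (j + 1) ≤ y) (h1 : (q : ℝ)⁻¹ ^ j ≤ z) (hz : z < 1) (m : ℕ) :
    (cc (aF t q) (j + 1) m : ℝ) ≤ K * ((1 + y) ^ 4 * (1 - z)⁻¹) * √q ^ m := by
  have h0 : 0 ≤ (√q)⁻¹ ^ (j + 1) := by positivity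
  refine cc_le_step (by positivity) h (fun D => (sum_cv_le h0 hy ht (sum_cv_le h0 hy ht (sum_cv_le h0 hy ht
    (sum_cv_le h0 hy ht (sum_aP_le h0 (le_of_eq_of_le ?_ h1) hz)))) D).trans_eq (by ring)) m
  rw [← pow_mul, mul_comm (j + 1), pow_mul, inv_pow, Real.sq_sqrt (by positivity), pow_succ]
  field_simp

theorem sqrt_inv_le (hq : 3 ≤ q) : (√q)⁻¹ ≤ 7 / 12 := by
  rw [inv_le_comm₀ (by positivity) (by norm_num)]
  exact Real.le_sqrt_of_sq_le (le_trans (by norm_num) (Nat.cast_le.2 hq))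

/-- The factor for two consecutive places. -/
noncomputable def gF (β γ y : ℝ) : ℝ := (1 + β * y) ^ 4 * (1 - 3 * y ^ 2)⁻¹ * ((1 + γ * y) ^ 4 * (1 - y ^ 2)⁻¹)

theorem cc_aF_le (hq : 3 ≤ q) (hβ : 0 ≤ β) (hγ : 0 ≤ γ) (h1 : ∀ k, t (2 * k) → 1 ≤ β) (h2 : ∀ k, t (2 * k + 1) → 7 / 12 ≤ γ)
    {K₁ : ℝ} (h : ∀ m, (aF t q 1 m : ℝ) ≤ K₁ * √q ^ m) (N : ℕ) (hc : 0 ≤ c) (hK : 0 ≤ K)
    (h3 : K₁ * ∏ k ∈ range N, gF β γ (3⁻¹ ^ (k + 1)) ≤ K * (1 - c * 3⁻¹ ^ N))
    (h4 : ∀ y, 0 < y → y ≤ 3⁻¹ ^ (N + 1) → (1 - 3 * c * y) * ((1 + β * y) ^ 4 * (1 + γ * y) ^ 4) ≤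
      (1 - c * y) * ((1 - 3 * y ^ 2) * (1 - y ^ 2))) (j m : ℕ) : (cc (aF t q) j m : ℝ) ≤ K * √q ^ m := by
  have hq' : (q : ℝ)⁻¹ ≤ 3⁻¹ := by gcongr; exact_mod_cast hq
  have h5 : ∀ k : ℕ, (3⁻¹ : ℝ) ^ (k + 1) ≤ 3⁻¹ := fun k => pow_le_of_le_one (by norm_num) (by norm_num) k.succ_ne_zero
  have h6 : ∀ k : ℕ, 3 * ((3⁻¹ : ℝ) ^ (k + 1)) ^ 2 < 1 := fun k => by
    have := h5 k; have : 0 < (3⁻¹ : ℝ) ^ (k + 1) := by positivity
    nlinarith
  have h7 : ∀ k : ℕ, (√q)⁻¹ ^ (2 * k) ≤ 3⁻¹ ^ k := fun k => by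
    rw [pow_mul, inv_pow, Real.sq_sqrt (by positivity)]; gcongr
  have h8 : ∀ k m, (cc (aF t q) (2 * k + 1) m : ℝ) ≤ K₁ * (∏ k ∈ range k, gF β γ (3⁻¹ ^ (k + 1))) * √q ^ m := fun k => by
    induction k with
    | zero =>
      intro m
      rw [cc, Nat.div_one, sum_eq_single_of_mem m (by simp) fun d hd h => by
        rw [cc, if_neg (by have := mem_range.1 hd; omega), mul_zero]]
      simpa [cc] using h m
    | succ k ih =>
      intro m
      refine (cc_aF_step (by omega) (cc_aF_step (by omega) ih (y := β * 3⁻¹ ^ (k + 1)) (by positivity) (fun h =>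
        (h7 (k + 1)).trans (le_mul_of_one_le_left (by positivity) (h1 (k + 1) h))) ?_ (h6 k)) (y := γ * 3⁻¹ ^ (k + 1))
        (z := (3⁻¹ ^ (k + 1)) ^ 2) (by positivity) (fun h => ?_) ?_ (by nlinarith [h6 k]) m).trans_eq (by
          rw [prod_range_succ, gF]; ring)
      · exact (pow_le_pow_left₀ (by positivity) hq' _).trans_eq (by ring)
      · rw [pow_succ']
        exact mul_le_mul ((sqrt_inv_le hq).trans (h2 (k + 1) h)) (h7 (k + 1)) (by positivity) hγ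
      · exact (pow_le_pow_left₀ (by positivity) hq' _).trans_eq (by ring)
  have h9 : ∀ k, N ≤ k → K₁ * ∏ k ∈ range k, gF β γ (3⁻¹ ^ (k + 1)) ≤ K * (1 - c * 3⁻¹ ^ k) := fun k hk => by
    induction hk with
    | refl => exact h3
    | @step k hk ih =>
      have h10 := h6 k
      have h11 : 0 < 1 - ((3⁻¹ : ℝ) ^ (k + 1)) ^ 2 := by nlinarith
      rw [prod_range_succ, ← mul_assoc]
      refine (mul_le_mul_of_nonneg_right ih (by rw [gF]; have := sub_pos.2 h10; positivity)).trans ?_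
      rw [mul_assoc]
      refine mul_le_mul_of_nonneg_left ?_ hK
      have := h4 _ (by positivity) (pow_le_pow_of_le_one (by norm_num) (by norm_num) (Nat.add_le_add_right hk 1))
      rw [gF, mul_mul_mul_comm, ← mul_inv, ← mul_assoc, mul_inv_le_iff₀ (mul_pos (sub_pos.2 h10) h11)]
      exact le_of_eq_of_le (by ring) this
  refine (Nat.cast_le.2 (cc_mono (fun _ => rfl) (show j ≤ 2 * (N + j) + 1 by omega) m)).trans ((h8 _ m).trans ?_)
  gcongr
  exact (h9 _ le_self_add).trans (mul_le_of_le_one_right hK (sub_le_self _ (by positivity)))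

theorem aP_le (q m : ℕ) : (aP q m : ℝ) ≤ 1 * √q ^ m := by
  rw [aP, one_mul]
  split_ifs with h
  · obtain ⟨m, rfl⟩ := h
    rw [← two_mul, pow_mul, Real.sq_sqrt (by positivity)]; simp
  · simp

theorem cv_of_not {t : Prop} (h : ¬ t) (a : ℕ → ℕ) : cv t a = a := funext fun d => by cases d <;> simp [cv, h]

theorem sqrt_pow (q n : ℕ) : √q ^ (n + n) = (q ^ n : ℕ) := by
  rw [← two_mul, pow_mul, Real.sq_sqrt (by positivity)]; simp

theorem cc_sp_le (hq : 3 ≤ q) (j n : ℕ) : 5 * cc (aF (fun j => Odd (j + 1)) q) j (n + n) ≤ 54 * q ^ n := by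
  have := cc_aF_le (t := fun j => Odd (j + 1)) (K := 54 / 5) (c := 2) (γ := 0) hq zero_le_one le_rfl (fun _ _ => le_rfl)
    (fun k h => absurd h (by simp [parity_simps])) (fun m => by
      simpa only [aF, cv_of_not (show ¬ Odd (1 + 1) by decide)] using aP_le q m) 3 (by norm_num) (by norm_num)
    (by norm_num [prod_range_succ, gF]) (fun y h1 h2 => by
      norm_num at h2
      nlinarith [mul_pos h1 h1, pow_pos h1 3, pow_pos h1 4, pow_pos h1 5]) j (n + n)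
  rw [sqrt_pow, mul_comm, ← mul_div_assoc, le_div_iff₀ (by norm_num), mul_comm, mul_comm _ 54] at this
  exact_mod_cast this

theorem cc_pal_le (hq : 3 ≤ q) (j n : ℕ) : cc (aF (fun _ => False) q) j (n + n) ≤ 2 * q ^ n := by
  have := cc_aF_le (t := fun _ => False) (K := 2) (c := 1 / 3) hq le_rfl le_rfl (fun _ => False.elim)
    (fun _ => False.elim) (fun m => by simpa only [aF, cv_of_not not_false] using aP_le q m) 1 (by norm_num) (by norm_num)
    (by norm_num [prod_range_succ, gF]) (fun y h1 h2 => by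
      norm_num at h2
      nlinarith [mul_pos h1 h1, pow_pos h1 3, pow_pos h1 4, pow_pos h1 5]) j (n + n)
  rw [sqrt_pow] at this
  exact_mod_cast this

theorem cc_o_le (hq : 3 ≤ q) (j n : ℕ) : cc (aF (fun j => Odd (j + 0)) q) j (n + n) ≤ 17 * q ^ n := by
  have := cc_aF_le (t := fun j => Odd (j + 0)) (K := 17) (K₁ := 28 / 9) (c := 7 / 6) hq le_rfl (by norm_num)
    (fun k h => absurd h (by simp)) (fun _ _ => le_rfl) (fun m => ?_) 2 (by norm_num) (by norm_num)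
    (by norm_num [prod_range_succ, gF]) (fun y h1 h2 => by
      norm_num at h2
      nlinarith [mul_pos h1 h1, pow_pos h1 3, pow_pos h1 4, pow_pos h1 5]) j (n + n)
  · rw [sqrt_pow] at this
    exact_mod_cast this
  have h1 : 12 / 7 ≤ √q := by simpa using inv_le_of_inv_le₀ (by positivity) (sqrt_inv_le hq)
  have h2 : (3 : ℝ) ≤ q := by exact_mod_cast hq
  have h3 : ∀ d, aP q (d + 2) = q * aP q d := fun d => by simp [aP, parity_simps, pow_succ']
  have h4 : √q * √q = q := Real.mul_self_sqrt (by positivity)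
  rcases m with _ | _ | _ | _ | m
  · norm_num [aF, cv, aP]
  · norm_num [aF, cv, aP]; linarith
  · norm_num [aF, cv, aP]; linarith
  · norm_num [aF, cv, aP, pow_succ, h4]; nlinarith
  have h5 : 0 ≤ √q ^ m := by positivity
  simp only [aF, cv, odd_one, if_true, add_zero, show m + 1 + 1 + 1 + 1 = m + 2 + 2 from rfl,
    show m + 1 + 1 + 1 = m + 1 + 2 from rfl, show m + 1 + 1 = m + 2 from rfl, h3, pow_add, Real.sq_sqrt (Nat.cast_nonneg q)]
  push_cast
  obtain ⟨m, rfl | rfl⟩ := m.even_or_odd'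
  · rw [two_mul, sqrt_pow, ← two_mul] at *
    push_cast at h5
    simp [aP]
    nlinarith [mul_nonneg h5 (sub_nonneg.2 h2), mul_nonneg h5 (mul_nonneg (sub_nonneg.2 h2) (sub_nonneg.2 h2))]
  · rw [pow_succ, two_mul, sqrt_pow, ← two_mul] at *
    simp [aP, add_assoc, parity_simps, pow_succ]
    have h6 : (0 : ℝ) ≤ q ^ m * q := by positivity
    nlinarith [mul_nonneg h6 (sub_nonneg.2 h2), mul_nonneg (mul_nonneg h6 (sub_nonneg.2 h1)) (Nat.cast_nonneg q)]

end Cfsg.Lib.GLC
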