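import Cfsg.Agent.Lib.GLC.ClassNum2

/-!
Product bounds for the recursion `cc`.
-/

set_option autoImplicit false

namespace Cfsg.Lib.GLC

open Finset

variable {a : ℕ → ℕ → ℕ} {j : ℕ} {K A q : ℝ}

theorem cc_le_step (hq : 0 < q) (h : ∀ m, (cc a j m : ℝ) ≤ K * q ^ m)
    (hA : ∀ D, ∑ d ∈ range D, a (j + 1) d * (q⁻¹ ^ (j + 1)) ^ d ≤ A) (m : ℕ) : (cc a (j + 1) m : ℝ) ≤ K * A * q ^ m := by
  have hK : 0 ≤ K := by simpa using (Nat.cast_nonneg _).trans (h 0)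
  rw [cc]
  push_cast
  refine (sum_le_sum (g := fun d => K * q ^ m * (a (j + 1) d * (q⁻¹ ^ (j + 1)) ^ d)) fun d hd => ?_).trans ?_
  · refine (mul_le_mul_of_nonneg_left (h _) (Nat.cast_nonneg _)).trans_eq ?_
    rw [pow_sub₀ _ hq.ne' ((Nat.le_div_iff_mul_le j.succ_pos).1 (Nat.le_of_lt_succ (mem_range.1 hd))), ← pow_mul, inv_pow,
      mul_comm (j + 1), Nat.succ_eq_add_one]
    ring
  · rw [← mul_sum, mul_right_comm K A]
    exact mul_le_mul_of_nonneg_left (hA _) (by positivity)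

theorem geom_le {x : ℝ} (h0 : 0 ≤ x) (h1 : x < 1) (D : ℕ) : ∑ d ∈ range D, x ^ d ≤ (1 - x)⁻¹ :=
  (summable_geometric_of_lt_one h0 h1).sum_le_tsum _ (fun _ _ => pow_nonneg h0 _) |>.trans_eq
    (tsum_geometric_of_lt_one h0 h1)

theorem sum_aN_le {N q : ℕ} {x : ℝ} (h0 : 0 ≤ x) (h1 : q * x < 1) (i D : ℕ) :
    ∑ d ∈ range D, aN N q i d * x ^ d ≤ 1 + N * x * (1 - q * x)⁻¹ := by
  have := sub_pos.2 h1
  rcases D with _ | D
  · simp only [range_zero, sum_empty]; positivity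
  rw [sum_range_succ', add_comm]
  simp only [aN, Nat.cast_one, pow_zero, mul_one, Nat.cast_mul, Nat.cast_pow, add_le_add_iff_left]
  refine le_of_eq_of_le (by rw [mul_sum]; exact sum_congr rfl fun d _ => by ring)
    (mul_le_mul_of_nonneg_left (geom_le (by positivity) h1 D) (by positivity))

theorem cc_mono (h : ∀ i, a i 0 = 1) {i j : ℕ} (hij : i ≤ j) (m : ℕ) : cc a i m ≤ cc a j m := by
  induction hij with
  | refl => rfl
  | step _ ih => rw [cc, sum_range_succ']; simpa [h] using ih.trans le_add_self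

/-- Propagating a bound `K (1 - c / q ^ j)`. -/
theorem cc_le_of_start (h0 : ∀ i, a i 0 = 1) (hq : 0 < q) {c : ℝ} (hc : 0 ≤ c) {i : ℕ}
    (h : ∀ m, (cc a i m : ℝ) ≤ K * (1 - c * q⁻¹ ^ i) * q ^ m) (hK : 0 ≤ K)
    (hA : ∀ j, i ≤ j → ∃ A, (∀ D, ∑ d ∈ range D, a (j + 1) d * (q⁻¹ ^ (j + 1)) ^ d ≤ A) ∧
      (1 - c * q⁻¹ ^ j) * A ≤ 1 - c * q⁻¹ ^ (j + 1)) (j m : ℕ) : (cc a j m : ℝ) ≤ K * q ^ m := by
  have h1 : ∀ j, i ≤ j → ∀ m, (cc a j m : ℝ) ≤ K * (1 - c * q⁻¹ ^ j) * q ^ m := fun j hj => by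
    induction hj with
    | refl => exact h
    | step hj ih =>
      obtain ⟨A, h1, h2⟩ := hA _ hj
      exact fun m => (cc_le_step hq ih h1 m).trans (by rw [mul_assoc K]; gcongr)
  refine (Nat.cast_le.2 (cc_mono h0 (le_max_right i j) m)).trans ((h1 _ (le_max_left i j) m).trans ?_)
  gcongr
  exact mul_le_of_le_one_right hK (sub_le_self _ (by positivity))

theorem cc_gu_step {q : ℕ} (hq : 2 ≤ q) {c : ℝ} (hc : q + 1 ≤ c * (q - 1)) {j : ℕ} (hj : 1 ≤ j) :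
    ∃ A, (∀ D, ∑ d ∈ range D, aN (q + 1) q (j + 1) d * ((q : ℝ)⁻¹ ^ (j + 1)) ^ d ≤ A) ∧
      (1 - c * (q : ℝ)⁻¹ ^ j) * A ≤ 1 - c * (q : ℝ)⁻¹ ^ (j + 1) := by
  have h2 : (2 : ℝ) ≤ q := by exact_mod_cast hq
  have h3 : (q : ℝ)⁻¹ ^ j = q * (q : ℝ)⁻¹ ^ (j + 1) := by rw [pow_succ]; field_simp
  have h4 : (q : ℝ)⁻¹ ^ j < 1 := pow_lt_one₀ (by positivity) (inv_lt_one_of_one_lt₀ (by linarith)) (by omega)
  refine ⟨_, sum_aN_le (by positivity) (h3 ▸ h4) _, ?_⟩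
  rw [h3] at h4 ⊢
  have h5 : 0 < (q : ℝ)⁻¹ ^ (j + 1) := by positivity
  generalize (q : ℝ)⁻¹ ^ (j + 1) = x at *
  have h6 := sub_pos.2 h4
  have h7 : 0 ≤ c := by nlinarith
  rw [show 1 + ((q + 1 : ℕ) : ℝ) * x * (1 - q * x)⁻¹ = (1 + x) / (1 - q * x) by push_cast; field_simp; ring,
    ← mul_div_assoc, div_le_iff₀ h6]
  nlinarith [mul_nonneg h7 (mul_nonneg (by positivity : (0 : ℝ) ≤ q) (mul_self_nonneg x)), mul_le_mul_of_nonneg_right hc h5.le]

theorem cc_gu_one {q : ℕ} (hq : 0 < q) (m : ℕ) : (cc (aN (q + 1) q) 1 m : ℝ) ≤ (1 + (q : ℝ)⁻¹) * q ^ m := by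
  rw [cc, Nat.div_one, sum_eq_single_of_mem m (by simp) fun d hd h => by
    rw [cc, if_neg (by have := mem_range.1 hd; omega), mul_zero]]
  rcases m with _ | m
  · simp [aN, cc]
  · simp only [aN, cc, zero_add, mul_one, Nat.sub_self, if_true]
    push_cast
    exact le_of_eq (by field_simp; ring)

theorem cc_gu_le {q : ℕ} (hq : 3 ≤ q) (j m : ℕ) : cc (aN (q + 1) q) j m ≤ 3 * q ^ m := by
  have h2 : (3 : ℝ) ≤ q := by exact_mod_cast hq
  have h3 : (q : ℝ) * (q : ℝ)⁻¹ ^ 2 = (q : ℝ)⁻¹ := by field_simp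
  have h4 : (q : ℝ)⁻¹ ≤ 3⁻¹ := by gcongr
  exact_mod_cast cc_le_of_start (K := 3) (q := q) (c := 2) (i := 2) (fun _ => rfl) (by positivity) two_pos.le (fun m =>
    (cc_le_step (by positivity) (cc_gu_one (by omega)) (sum_aN_le (by positivity) (by rw [h3]; linarith) _) m).trans (by
      refine mul_le_mul_of_nonneg_right ?_ (by positivity)
      have : (0 : ℝ) < q - 1 := by linarith
      rw [show (1 + 1 : ℕ) = 2 from rfl, h3, show 1 - (q : ℝ)⁻¹ = (q - 1) / q by field_simp]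
      push_cast
      field_simp
      nlinarith [mul_nonneg (sub_nonneg.2 h2) (sub_nonneg.2 h2), pow_nonneg (sub_nonneg.2 h2) 3])) (by norm_num)
    (fun j hj => cc_gu_step (by omega) (by linarith) (by omega)) j m

theorem cc_gu_two (j m : ℕ) : cc (aN 3 2) j m ≤ 9 * 2 ^ m := by
  exact_mod_cast cc_le_of_start (K := 9) (q := (2 : ℕ)) (c := 3) (i := 3) (fun _ => rfl) (by positivity) three_pos.le (fun m =>
    (cc_le_step (by positivity) (cc_le_step (by positivity) (cc_gu_one two_pos) (sum_aN_le (by positivity) (by norm_num) _))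
      (sum_aN_le (by positivity) (by norm_num) _) m).trans (by norm_num)) (by norm_num)
    (fun j hj => cc_gu_step le_rfl (by norm_num) (by omega)) j m

theorem wt_gu_le {q n : ℕ} (hq : 2 ≤ q) (hn : 2 ≤ n) : 100 * wt (q + 1) q n n ≤ 826 * q ^ (n - 1) * (q + 1) := by
  rcases hq.eq_or_lt with rfl | hq
  · rcases le_or_gt n 10 with h | h
    · revert hn
      revert n
      decide +kernel
    have h1 := sum_divisors_le (Q := 1) (N := 3) (m := n) (cc_gu_two n) (by simp) (by omega)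
    have h2 := cc_gu_two n n
    obtain ⟨n, rfl⟩ := Nat.exists_eq_add_of_le' (show 5 ≤ n by omega)
    have h3 := Nat.pow_le_pow_right two_pos (show (n + 5) / 2 + 1 ≤ n by omega)
    simp only [wt, show n + 5 - 1 = n + 4 from rfl, pow_add (2 : ℕ) n, Nat.reduceAdd] at *
    omega
  have h2 := cc_gu_le hq n n
  rw [wt]
  rcases hn.eq_or_lt with rfl | hn
  · have h3 := cc_gu_le hq 2 1
    by_cases h : 2 ∣ q + 1
    · rw [Nat.gcd_eq_left h, Nat.prime_two.sum_divisors]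
      simp at *
      nlinarith
    · simp [Nat.prime_two.coprime_iff_not_dvd.2 h]
      nlinarith
  obtain ⟨Q, rfl⟩ := Nat.exists_eq_add_of_le' (show 1 ≤ q by omega)
  have h1 := sum_divisors_le (N := Q + 1 + 1) (m := n) (cc_gu_le hq n) (by simp) (by omega)
  obtain ⟨n, rfl⟩ := Nat.exists_eq_add_of_le' (show 1 ≤ n by omega)
  have h3 := h1.trans (Nat.mul_le_mul_left _ (Nat.pow_le_pow_right Q.succ_pos (show (n + 1) / 2 + 1 ≤ n by omega)))
  refine Nat.le_of_mul_le_mul_left ?_ (show 0 < Q by omega)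
  rw [pow_succ] at h2
  simp only [Nat.add_sub_cancel, Nat.succ_eq_add_one] at *
  have h4 : 300 * (Q + 1 + 1) ^ 2 + 300 * Q * (Q + 1) ≤ 826 * Q * (Q + 1 + 1) := by nlinarith
  nlinarith [Nat.mul_le_mul_right ((Q + 1) ^ n) h4, Nat.mul_le_mul_left Q h2]

end Cfsg.Lib.GLC
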